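import Mathlib

set_option autoImplicit false
set_option linter.unusedSectionVars false

namespace Cfsg.Agent.Lib.Helper9.PerfStep

open Finset

/-- sum-zero functions on `G` with values in `ZMod p`, extended by `G` acting by translation -/
structure SD0 (G : Type) [Group G] [Fintype G] (p : ℕ) where
  f : G → ZMod p
  g : G
  hf : ∑ x, f x = 0

variable {G : Type} [Group G] [Fintype G] {p : ℕ}

theorem SD0.ext' {a b : SD0 G p} (h1 : a.f = b.f) (h2 : a.g = b.g) : a = b := by
  cases a
  cases b
  simp only [SD0.mk.injEq]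
  exact ⟨h1, h2⟩

theorem sum_shift (f : G → ZMod p) (g : G) : ∑ x, f (g * x) = ∑ x, f x :=
  Fintype.sum_equiv (Equiv.mulLeft g) _ _ (fun _ => rfl)

instance instGroupSD0 : Group (SD0 G p) where
  mul a b := ⟨fun x => a.f x + b.f (a.g⁻¹ * x), a.g * b.g, by
    rw [Finset.sum_add_distrib, a.hf, sum_shift, b.hf, add_zero]⟩
  one := ⟨0, 1, by simp⟩
  inv a := ⟨fun x => - a.f (a.g * x), a.g⁻¹, by
    rw [Finset.sum_neg_distrib, sum_shift, a.hf, neg_zero]⟩
  mul_assoc a b c := by
    apply SD0.ext'
    · funext x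
      show a.f x + b.f (a.g⁻¹ * x) + c.f ((a.g * b.g)⁻¹ * x)
        = a.f x + (b.f (a.g⁻¹ * x) + c.f (b.g⁻¹ * (a.g⁻¹ * x)))
      rw [mul_inv_rev, mul_assoc, add_assoc]
    · exact mul_assoc _ _ _
  one_mul a := by
    apply SD0.ext'
    · funext x
      show (0 : G → ZMod p) x + a.f ((1 : G)⁻¹ * x) = a.f x
      simp
    · exact one_mul _
  mul_one a := by
    apply SD0.ext'
    · funext x
      show a.f x + (0 : G → ZMod p) (a.g⁻¹ * x) = a.f x
      simp
    · exact mul_one _
  inv_mul_cancel a := by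
    apply SD0.ext'
    · funext x
      show - a.f (a.g * x) + a.f ((a.g⁻¹)⁻¹ * x) = (0 : G → ZMod p) x
      simp
    · exact inv_mul_cancel _

theorem mul_f (a b : SD0 G p) (x : G) : (a * b).f x = a.f x + b.f (a.g⁻¹ * x) := rfl
theorem mul_g (a b : SD0 G p) : (a * b).g = a.g * b.g := rfl
theorem one_f : (1 : SD0 G p).f = 0 := rfl
theorem one_g : (1 : SD0 G p).g = 1 := rfl
theorem inv_f (a : SD0 G p) (x : G) : (a⁻¹).f x = - a.f (a.g * x) := rfl
theorem inv_g (a : SD0 G p) : (a⁻¹).g = a.g⁻¹ := rfl

theorem finite_SD0 [NeZero p] : Finite (SD0 G p) := by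
  apply Finite.of_injective (fun a : SD0 G p => (a.f, a.g))
  intro a b h
  rw [Prod.mk.injEq] at h
  exact SD0.ext' h.1 h.2

/-- projection -/
def proj (G : Type) [Group G] [Fintype G] (p : ℕ) : SD0 G p →* G where
  toFun a := a.g
  map_one' := rfl
  map_mul' _ _ := rfl

/-- section -/
def incl (G : Type) [Group G] [Fintype G] (p : ℕ) : G →* SD0 G p where
  toFun g := ⟨0, g, by simp⟩
  map_one' := rfl
  map_mul' a b := by
    apply SD0.ext'
    · funext x
      rw [mul_f]
      simp
    · rfl

theorem proj_incl (g : G) : proj G p (incl G p g) = g := rfl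

theorem proj_surjective : Function.Surjective (proj G p) := fun g => ⟨incl G p g, rfl⟩

/-- vertical element -/
def vert (f : G → ZMod p) (hf : ∑ x, f x = 0) : SD0 G p := ⟨f, 1, hf⟩

theorem vert_mul (f1 f2 : G → ZMod p) (h1 : ∑ x, f1 x = 0) (h2 : ∑ x, f2 x = 0) :
    vert f1 h1 * vert f2 h2 = vert (f1 + f2) (by
      rw [show ∑ x, (f1 + f2) x = ∑ x, (f1 x + f2 x) from rfl, Finset.sum_add_distrib, h1, h2,
        add_zero]) := by
  apply SD0.ext'
  · funext x
    rw [mul_f]
    simp [vert]
  · show (1 : G) * 1 = 1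
    simp

theorem vert_zero : vert (0 : G → ZMod p) (by simp) = 1 := rfl

theorem vert_inv (f : G → ZMod p) (h : ∑ x, f x = 0) :
    (vert f h)⁻¹ = vert (-f) (by
      rw [show ∑ x, (-f) x = ∑ x, -(f x) from rfl, Finset.sum_neg_distrib, h, neg_zero]) := by
  apply SD0.ext'
  · funext x
    rw [inv_f]
    simp [vert]
  · show (1 : G)⁻¹ = 1
    simp

theorem decomp (a : SD0 G p) : a = vert a.f a.hf * incl G p a.g := by
  apply SD0.ext'
  · funext x
    rw [mul_f]
    simp [vert, incl]
  · show a.g = 1 * a.g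
    simp


theorem vert_congr {f1 f2 : G → ZMod p} (h : f1 = f2) (h1 : ∑ x, f1 x = 0)
    (h2 : ∑ x, f2 x = 0) : vert f1 h1 = vert f2 h2 := by
  subst h
  rfl

/-- translation operator on functions -/
def tr (g : G) (w : G → ZMod p) : G → ZMod p := fun x => w (g⁻¹ * x)

theorem tr_mul (g h : G) (w : G → ZMod p) : tr (g * h) w = tr g (tr h w) := by
  funext x
  simp [tr, mul_assoc]

theorem tr_one (w : G → ZMod p) : tr (1 : G) w = w := by
  funext x
  simp [tr]

theorem tr_sub (g : G) (u v : G → ZMod p) : tr g (u - v) = tr g u - tr g v := rfl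

theorem sum_tr (g : G) (w : G → ZMod p) : ∑ x, tr g w x = ∑ x, w x := sum_shift w g⁻¹

theorem sum_sub_tr (g : G) (w : G → ZMod p) : ∑ x, (w - tr g w) x = 0 := by
  rw [show ∑ x, (w - tr g w) x = ∑ x, (w x - tr g w x) from rfl, Finset.sum_sub_distrib, sum_tr,
    sub_self]

theorem comm_vert (t : SD0 G p) (u : G → ZMod p) (hu : ∑ x, u x = 0) :
    t * vert u hu * t⁻¹ * (vert u hu)⁻¹
      = vert (tr t.g u - u) (by
        rw [show ∑ x, (tr t.g u - u) x = ∑ x, (tr t.g u x - u x) from rfl,
          Finset.sum_sub_distrib, sum_tr, sub_self]) := by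
  apply SD0.ext'
  · funext x
    simp only [mul_f, inv_f, mul_g, inv_g, vert, tr, Pi.sub_apply]
    simp
    ring
  · show t.g * 1 * t.g⁻¹ * (1 : G)⁻¹ = 1
    simp

section Perfect

variable [DecidableEq G]

/-- e x = δ_x − δ_1 -/
def ee (x : G) : SD0 G p :=
  vert (Pi.single x 1 - Pi.single 1 1) (by simp [Finset.sum_sub_distrib])

theorem ee_mul (x y : G) :
    (ee (x * y) : SD0 G p) = incl G p x * ee y * (incl G p x)⁻¹ * ee x := by
  apply SD0.ext'
  · funext z
    simp only [mul_f, inv_f, mul_g, inv_g, ee, vert, incl, Pi.sub_apply, Pi.single_apply,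
      MonoidHom.coe_mk, OneHom.coe_mk, Pi.zero_apply, neg_zero, add_zero, zero_add, mul_one,
      mul_inv_cancel, inv_one, one_mul, inv_mul_eq_iff_eq_mul]
    ring
  · show (1 : G) = x * 1 * x⁻¹ * 1
    simp

/-- the homomorphism x ↦ class of e x -/
def psi (G : Type) [Group G] [Fintype G] [DecidableEq G] (p : ℕ) :
    G →* Abelianization (SD0 G p) :=
  MonoidHom.mk' (fun x => Abelianization.of (ee x)) (by
    intro x y
    rw [ee_mul]
    simp only [map_mul, map_inv]
    rw [mul_comm (Abelianization.of (incl G p x)) _, mul_inv_cancel_right, mul_comm])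

theorem vert_pow (f : G → ZMod p) (h : ∑ x, f x = 0) (n : ℕ) :
    ∃ h', (vert f h) ^ n = vert (n • f) h' := by
  induction n with
  | zero =>
    refine ⟨by simp, ?_⟩
    rw [pow_zero]
    apply SD0.ext'
    · funext x
      simp [vert, one_f]
    · rfl
  | succ n ih =>
    obtain ⟨h', e⟩ := ih
    have h'' : ∑ x, ((n + 1) • f) x = 0 := by
      rw [show ∑ x, ((n + 1) • f) x = ∑ x, (n + 1) • f x from rfl, ← Finset.smul_sum, h,
        smul_zero]
    refine ⟨h'', ?_⟩
    rw [pow_succ, e, vert_mul]
    exact vert_congr (by rw [succ_nsmul]) _ _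

theorem perfect [NeZero p] (hG : commutator G = ⊤) : commutator (SD0 G p) = ⊤ := by
  have h1 : ∀ g : G, incl G p g ∈ commutator (SD0 G p) := by
    intro g
    have hg : g ∈ commutator G := by
      rw [hG]
      trivial
    have := Subgroup.mem_map_of_mem (incl G p) hg
    rw [commutator_def, Subgroup.map_commutator] at this
    rw [commutator_def]
    exact Subgroup.commutator_mono le_top le_top this
  have h2 : ∀ x : G, (ee x : SD0 G p) ∈ commutator (SD0 G p) := by
    intro x
    have hx : x ∈ (psi G p).ker := Abelianization.commutator_subset_ker _ (by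
      rw [hG]
      trivial)
    rw [MonoidHom.mem_ker] at hx
    have : Abelianization.of (ee x : SD0 G p) = 1 := hx
    rwa [← MonoidHom.mem_ker, Abelianization.ker_of] at this
  have h3 : ∀ (f : G → ZMod p) (hf : ∑ x, f x = 0), vert f hf ∈ commutator (SD0 G p) := by
    intro f hf
    have key : ∃ h, vert (∑ x : G, (f x).val • (Pi.single x (1 : ZMod p)
        - Pi.single (1 : G) (1 : ZMod p) : G → ZMod p)) h ∈ commutator (SD0 G p) := by
      refine Finset.sum_induction (fun x : G => (f x).val • (Pi.single x (1 : ZMod p)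
        - Pi.single (1 : G) (1 : ZMod p) : G → ZMod p))
        (fun v : G → ZMod p => ∃ h, vert v h ∈ commutator (SD0 G p)) ?_ ?_ ?_
      · rintro u v ⟨hu, hu'⟩ ⟨hv, hv'⟩
        have := Subgroup.mul_mem _ hu' hv'
        rw [vert_mul] at this
        exact ⟨_, this⟩
      · exact ⟨by simp, by
          rw [vert_zero]
          exact Subgroup.one_mem _⟩
      · intro x _
        obtain ⟨h', e⟩ := vert_pow (Pi.single x (1 : ZMod p) - Pi.single (1 : G) (1 : ZMod p)
          : G → ZMod p) (ee x : SD0 G p).hf (f x).val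
        refine ⟨h', ?_⟩
        rw [← e]
        exact Subgroup.pow_mem _ (h2 x) _
    obtain ⟨h, hmem⟩ := key
    have heq : (∑ x : G, (f x).val • (Pi.single x (1 : ZMod p)
        - Pi.single (1 : G) (1 : ZMod p) : G → ZMod p)) = f := by
      funext y
      rw [Finset.sum_apply]
      simp only [Pi.smul_apply, Pi.sub_apply, Pi.single_apply, nsmul_eq_mul,
        ZMod.natCast_zmod_val, mul_sub, Finset.sum_sub_distrib, mul_ite, mul_one, mul_zero,
        Finset.sum_ite_eq, Finset.mem_univ, if_true]
      by_cases hy : y = 1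
      · simp [hy, hf]
      · simp [hy]
    rw [vert_congr heq h hf] at hmem
    exact hmem
  rw [eq_top_iff]
  intro a _
  rw [decomp a]
  exact Subgroup.mul_mem _ (h3 _ _) (h1 _)

end Perfect

theorem isCoatom_comap {A B : Type*} [Group A] [Group B] (f : A →* B)
    (hf : Function.Surjective f) (H : Subgroup B) (hH : IsCoatom H) :
    IsCoatom (H.comap f) := by
  constructor
  · intro h
    apply hH.1
    rw [eq_top_iff]
    intro b _
    obtain ⟨a, rfl⟩ := hf b
    have : a ∈ H.comap f := by
      rw [h]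
      trivial
    exact this
  · intro K hK
    have hker : f.ker ≤ K := le_trans (by
      intro x hx
      rw [Subgroup.mem_comap, MonoidHom.mem_ker.mp hx]
      exact H.one_mem) hK.le
    have h1 : H < K.map f := by
      refine lt_of_le_of_ne ?_ ?_
      · rw [← Subgroup.map_comap_eq_self_of_surjective hf H]
        exact Subgroup.map_mono hK.le
      · intro heq
        apply hK.ne
        rw [heq, Subgroup.comap_map_eq_self hker]
    have h2 := hH.2 _ h1
    rw [← Subgroup.comap_map_eq_self hker, h2, Subgroup.comap_top]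

theorem solvable_comap (H : Subgroup G) (hH : Group.IsSolvable H) :
    Group.IsSolvable (H.comap (proj G p)) := by
  let ρ : ↥(H.comap (proj G p)) →* ↥H := (proj G p).subgroupComap H
  have hker : Group.IsSolvable ρ.ker := by
    apply Group.isSolvable_of_comm
    rintro ⟨⟨a, ha⟩, hka⟩ ⟨⟨b, hb⟩, hkb⟩
    have ea : a.g = 1 := congrArg Subtype.val (MonoidHom.mem_ker.mp hka)
    have eb : b.g = 1 := congrArg Subtype.val (MonoidHom.mem_ker.mp hkb)
    apply Subtype.ext
    apply Subtype.ext
    show a * b = b * a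
    apply SD0.ext'
    · funext x
      rw [mul_f, mul_f, ea, eb]
      simp [add_comm]
    · rw [mul_g, mul_g, ea, eb]
  exact Group.isSolvable_of_ker_le_range ρ.ker.subtype ρ (by rw [Subgroup.range_subtype])


theorem la (hp : Fact p.Prime) (a : G) (hn : ((orderOf a : ℕ) : ZMod p) ≠ 0)
    (w : G → ZMod p) :
    ∃ w' : G → ZMod p, w - tr a w = (w' - tr a w') - tr a (w' - tr a w') := by
  let L : (G → ZMod p) →ₗ[ZMod p] (G → ZMod p) :=
    LinearMap.id - LinearMap.funLeft (ZMod p) (ZMod p) (fun x => a⁻¹ * x)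
  have hL : ∀ v, L v = v - tr a v := fun v => rfl
  have hinj : ∀ x ∈ LinearMap.range L, L x = 0 → x = 0 := by
    rintro x ⟨w0, rfl⟩ h0
    rw [hL] at h0
    have hfix1 : tr a (L w0) = L w0 := (sub_eq_zero.mp h0).symm
    have hfix : ∀ i : ℕ, tr (a ^ i) (L w0) = L w0 := by
      intro i
      induction i with
      | zero => rw [pow_zero, tr_one]
      | succ i ih => rw [pow_succ, tr_mul, hfix1, ih]
    have S1 : ∑ i ∈ Finset.range (orderOf a), tr (a ^ i) (L w0) = orderOf a • L w0 := by
      rw [Finset.sum_congr rfl (fun i _ => hfix i), Finset.sum_const, Finset.card_range]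
    have S2 : ∑ i ∈ Finset.range (orderOf a), tr (a ^ i) (L w0) = 0 := by
      have : ∀ i ∈ Finset.range (orderOf a), tr (a ^ i) (L w0)
          = tr (a ^ i) w0 - tr (a ^ (i + 1)) w0 := by
        intro i _
        rw [hL, tr_sub, ← tr_mul, ← pow_succ]
      rw [Finset.sum_congr rfl this, Finset.sum_range_sub', pow_zero, pow_orderOf_eq_one,
        sub_self]
    rw [S1] at S2
    rw [← Nat.cast_smul_eq_nsmul (ZMod p)] at S2
    rcases smul_eq_zero.mp S2 with h | h
    · exact absurd h hn
    · exact h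
  let Lr : LinearMap.range L →ₗ[ZMod p] LinearMap.range L :=
    L.restrict (fun x _ => LinearMap.mem_range_self L x)
  have hLr : Function.Injective Lr := by
    rw [← LinearMap.ker_eq_bot, LinearMap.ker_eq_bot']
    rintro ⟨x, hx⟩ h
    have : L x = 0 := congrArg Subtype.val h
    exact Subtype.ext (hinj x hx this)
  have hsurj : Function.Surjective Lr := LinearMap.injective_iff_surjective.mp hLr
  obtain ⟨⟨x, ⟨w', rfl⟩⟩, hx⟩ := hsurj ⟨L w, LinearMap.mem_range_self L w⟩
  refine ⟨w', ?_⟩
  have h2 : L (L w') = L w := congrArg Subtype.val hx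
  rw [hL, hL, hL] at h2
  exact h2.symm

theorem derived_step [DecidableEq G] (H : Subgroup G) (d : ℕ) (hder : derivedSeries H d ≠ ⊥)
    (hp : Fact p.Prime) (hpc : Nat.card G < p) :
    derivedSeries (H.comap (proj G p)) (d + 1) ≠ ⊥ := by
  obtain ⟨⟨a', ha'd⟩, ha'ne⟩ := (Subgroup.ne_bot_iff_exists_ne_one).mp hder
  have ha'1 : a' ≠ 1 := by
    intro h
    apply ha'ne
    exact Subtype.ext h
  obtain ⟨a, haH⟩ := a'
  have ha1 : a ≠ 1 := by
    intro h
    apply ha'1
    exact Subtype.ext h
  have hn : ((orderOf a : ℕ) : ZMod p) ≠ 0 := by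
    rw [Ne, ZMod.natCast_eq_zero_iff]
    intro hdvd
    have h1 : orderOf a ≤ Nat.card G := orderOf_le_card
    have h2 : 0 < orderOf a := orderOf_pos a
    have := Nat.le_of_dvd h2 hdvd
    omega
  -- the elements c w
  have hmem : ∀ w : G → ZMod p, vert (w - tr a w) (sum_sub_tr a w) ∈ H.comap (proj G p) := by
    intro w
    rw [Subgroup.mem_comap]
    exact H.one_mem
  let ρ : ↥(H.comap (proj G p)) →* ↥H := (proj G p).subgroupComap H
  have hρ : Function.Surjective ρ := by
    rintro ⟨h, hh⟩
    exact ⟨⟨incl G p h, hh⟩, rfl⟩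
  have claim : ∀ j, j ≤ d + 1 → ∀ w : G → ZMod p,
      (⟨vert (w - tr a w) (sum_sub_tr a w), hmem w⟩ : ↥(H.comap (proj G p)))
        ∈ derivedSeries (H.comap (proj G p)) j := by
    intro j
    induction j with
    | zero =>
      intro _ w
      rw [derivedSeries_zero]
      trivial
    | succ j ih =>
      intro hj w
      have ihj := ih (by omega)
      have hmap := map_derivedSeries_eq hρ j
      have haj : (⟨a, haH⟩ : ↥H) ∈ derivedSeries H j :=
        derivedSeries_antitone H (by omega : j ≤ d) ha'd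
      rw [← hmap] at haj
      obtain ⟨t, ht, hta⟩ := Subgroup.mem_map.mp haj
      have htg : (t : SD0 G p).g = a := congrArg Subtype.val hta
      obtain ⟨w', hw'⟩ := la hp a hn w
      have hcomm := Subgroup.commutator_mem_commutator ht (ihj w')
      rw [← derivedSeries_succ] at hcomm
      have hinv := Subgroup.inv_mem _ hcomm
      convert hinv using 1
      apply Subtype.ext
      rw [commutatorElement_def]
      show vert (w - tr a w) (sum_sub_tr a w)
        = ((t : SD0 G p) * vert (w' - tr a w') (sum_sub_tr a w') * (t : SD0 G p)⁻¹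
            * (vert (w' - tr a w') (sum_sub_tr a w'))⁻¹)⁻¹
      rw [comm_vert, vert_inv, htg]
      apply vert_congr
      rw [hw']
      abel
  have hfin := claim (d + 1) le_rfl (Pi.single (1 : G) (1 : ZMod p))
  intro hbot
  rw [hbot, Subgroup.mem_bot] at hfin
  have h1 : (vert (Pi.single (1 : G) (1 : ZMod p) - tr a (Pi.single (1 : G) (1 : ZMod p)))
      (sum_sub_tr a _) : SD0 G p) = 1 := congrArg Subtype.val hfin
  have h2 := congrFun (congrArg SD0.f h1) 1
  simp only [vert, one_f, Pi.sub_apply, tr, Pi.single_apply, mul_one, Pi.zero_apply] at h2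
  have h3 : ¬ (a⁻¹ = 1) := by
    intro h
    exact ha1 (inv_eq_one.mp h)
  simp [h3] at h2

end Cfsg.Agent.Lib.Helper9.PerfStep
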