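import Mathlib
import Cfsg.Agent.Lib.Lead.Char8
import Cfsg.Agent.Lib.Helper9.PerfStep

set_option autoImplicit false

namespace Cfsg.Agent.Lib.Helper9.PerfBase

open Cfsg.Agent.Lib.Helper9.PerfStep
open scoped commutatorElement

theorem base : ∃ (G : Type) (_ : Group G) (_ : Finite G) (H : Subgroup G),
    commutator G = ⊤ ∧ IsCoatom H ∧ Group.IsSolvable H ∧ derivedSeries H 0 ≠ ⊥ := by
  have hsimple : IsSimpleGroup (alternatingGroup (Fin 5)) := alternatingGroup.isSimpleGroup (by simp)
  have hcard : Nat.card (alternatingGroup (Fin 5)) = 60 := by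
    rw [nat_card_alternatingGroup]
    simp [Nat.factorial]
  obtain ⟨x, y, hxy⟩ : ∃ x y : alternatingGroup (Fin 5), x * y ≠ y * x :=
    ⟨⟨Equiv.swap 0 1 * Equiv.swap 1 2, Equiv.Perm.mem_alternatingGroup.mpr (by decide)⟩,
      ⟨Equiv.swap 0 1 * Equiv.swap 2 3, Equiv.Perm.mem_alternatingGroup.mpr (by decide)⟩,
      by decide⟩
  have hperf : commutator (alternatingGroup (Fin 5)) = ⊤ := by
    rcases hsimple.eq_bot_or_eq_top_of_normal (commutator (alternatingGroup (Fin 5)))
      inferInstance with h | h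
    · exfalso
      have hmem : ⁅x, y⁆ ∈ commutator (alternatingGroup (Fin 5)) := by
        rw [commutator_def]
        exact Subgroup.commutator_mem_commutator (Subgroup.mem_top x) (Subgroup.mem_top y)
      rw [h, Subgroup.mem_bot] at hmem
      exact hxy (commutatorElement_eq_one_iff_mul_comm.mp hmem)
    · exact h
  have hnt : (⊥ : Subgroup (alternatingGroup (Fin 5))) ≠ ⊤ := by
    intro h
    have : x ∈ (⊥ : Subgroup (alternatingGroup (Fin 5))) := by
      rw [h]
      trivial
    rw [Subgroup.mem_bot] at this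
    apply hxy
    rw [this, one_mul, mul_one]
  obtain ⟨H, hH, -⟩ : ∃ H, IsCoatom H ∧ (⊥ : Subgroup (alternatingGroup (Fin 5))) ≤ H := by
    rcases IsCoatomic.eq_top_or_exists_le_coatom (⊥ : Subgroup (alternatingGroup (Fin 5)))
      with h | h
    · exact absurd h hnt
    · exact h
  have hHbot : H ≠ ⊥ := by
    intro h
    rw [h] at hH
    have hx1 : x ≠ 1 := by
      intro hx
      apply hxy
      rw [hx, one_mul, mul_one]
    have hlt : (⊥ : Subgroup (alternatingGroup (Fin 5))) < Subgroup.zpowers x := by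
      rw [bot_lt_iff_ne_bot]
      intro hz
      have : x ∈ Subgroup.zpowers x := Subgroup.mem_zpowers x
      rw [hz, Subgroup.mem_bot] at this
      exact hx1 this
    have htop := hH.2 _ hlt
    have hy : y ∈ Subgroup.zpowers x := by
      rw [htop]
      trivial
    obtain ⟨k, rfl⟩ := Subgroup.mem_zpowers_iff.mp hy
    apply hxy
    exact ((Commute.refl x).zpow_right k).eq
  have hsol : Group.IsSolvable H := by
    have hdvd : Nat.card H ∣ 60 := by
      rw [← hcard]
      exact Subgroup.card_subgroup_dvd_card H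
    have hne60 : Nat.card H ≠ 60 := by
      intro h
      apply hH.1
      apply Subgroup.eq_top_of_card_eq
      rw [h, hcard]
    have hne30 : Nat.card H ≠ 30 := by
      intro h
      have hidx : H.index = 2 := by
        have := H.card_mul_index
        rw [h, hcard] at this
        omega
      have hn : H.Normal := Subgroup.normal_of_index_eq_two hidx
      rcases hsimple.eq_bot_or_eq_top_of_normal H hn with h' | h'
      · exact hHbot h'
      · exact hH.1 h'
    have hmem : Nat.card H ∈ Nat.divisors 60 := Nat.mem_divisors.mpr ⟨hdvd, by norm_num⟩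
    have hdiv : Nat.divisors 60 = {1, 2, 3, 4, 5, 6, 10, 12, 15, 20, 30, 60} := by decide
    rw [hdiv] at hmem
    simp only [Finset.mem_insert, Finset.mem_singleton] at hmem
    rcases hmem with h | h | h | h | h | h | h | h | h | h | h | h
    · exact Cfsg.Agent.Lib.Lead.burnside_paqb 2 3 0 0 Nat.prime_two Nat.prime_three (by rw [h]; norm_num)
    · exact Cfsg.Agent.Lib.Lead.burnside_paqb 2 3 1 0 Nat.prime_two Nat.prime_three (by rw [h]; norm_num)
    · exact Cfsg.Agent.Lib.Lead.burnside_paqb 2 3 0 1 Nat.prime_two Nat.prime_three (by rw [h]; norm_num)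
    · exact Cfsg.Agent.Lib.Lead.burnside_paqb 2 3 2 0 Nat.prime_two Nat.prime_three (by rw [h]; norm_num)
    · exact Cfsg.Agent.Lib.Lead.burnside_paqb 2 5 0 1 Nat.prime_two Nat.prime_five (by rw [h]; norm_num)
    · exact Cfsg.Agent.Lib.Lead.burnside_paqb 2 3 1 1 Nat.prime_two Nat.prime_three (by rw [h]; norm_num)
    · exact Cfsg.Agent.Lib.Lead.burnside_paqb 2 5 1 1 Nat.prime_two Nat.prime_five (by rw [h]; norm_num)
    · exact Cfsg.Agent.Lib.Lead.burnside_paqb 2 3 2 1 Nat.prime_two Nat.prime_three (by rw [h]; norm_num)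
    · exact Cfsg.Agent.Lib.Lead.burnside_paqb 3 5 1 1 Nat.prime_three Nat.prime_five (by rw [h]; norm_num)
    · exact Cfsg.Agent.Lib.Lead.burnside_paqb 2 5 2 1 Nat.prime_two Nat.prime_five (by rw [h]; norm_num)
    · exact absurd h hne30
    · exact absurd h hne60
  refine ⟨alternatingGroup (Fin 5), inferInstance, inferInstance, H, hperf, hH, hsol, ?_⟩
  rw [derivedSeries_zero]
  intro h
  obtain ⟨z, hz1⟩ := (Subgroup.ne_bot_iff_exists_ne_one).mp hHbot
  have : z ∈ (⊤ : Subgroup H) := Subgroup.mem_top z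
  rw [h, Subgroup.mem_bot] at this
  exact hz1 this

theorem main (d : ℕ) : ∃ (G : Type) (_ : Group G) (_ : Finite G) (H : Subgroup G),
    commutator G = ⊤ ∧ IsCoatom H ∧ Group.IsSolvable H ∧ derivedSeries H d ≠ ⊥ := by
  induction d with
  | zero => exact base
  | succ d ih =>
    obtain ⟨G, hgrp, hfin, H, hperf, hco, hsol, hder⟩ := ih
    classical
    haveI : Fintype G := Fintype.ofFinite G
    obtain ⟨p, hpge, hpp⟩ := Nat.exists_infinite_primes (Nat.card G + 1)
    haveI : Fact p.Prime := ⟨hpp⟩
    haveI : NeZero p := ⟨hpp.ne_zero⟩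
    exact ⟨SD0 G p, inferInstance, finite_SD0, H.comap (proj G p), perfect hperf,
      isCoatom_comap _ proj_surjective H hco, solvable_comap H hsol,
      derived_step H d hder ⟨hpp⟩ (by omega)⟩

end Cfsg.Agent.Lib.Helper9.PerfBase
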