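import Mathlib

set_option autoImplicit false
set_option linter.unusedSectionVars false

namespace Cfsg.Agent.Lib.Helper9.SymIndex

open Equiv MulAction Nat

theorem fact_ineq : ∀ (k : ℕ), 4 ≤ k → ∀ m : ℕ, 2 ^ k * k ! * m ! < 2 * (m + 2 * k - 2)! := by
  intro k hk
  induction k, hk using Nat.le_induction with
  | base =>
    intro m
    have h1 : m ! * 6 ! ∣ (m + 6)! := Nat.factorial_mul_factorial_dvd_factorial_add m 6
    have h2 := Nat.le_of_dvd (Nat.factorial_pos _) h1
    have h3 : (6 : ℕ)! = 720 := by decide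
    have h4 : (4 : ℕ)! = 24 := by decide
    have h5 : 0 < m ! := Nat.factorial_pos m
    have h6 : m + 2 * 4 - 2 = m + 6 := by omega
    rw [h6, h4]
    rw [h3] at h2
    norm_num
    omega
  | succ k hk ih =>
    intro m
    have h1 := ih m
    obtain ⟨j, hj⟩ : ∃ j, m + 2 * k - 2 = j := ⟨_, rfl⟩
    have h2 : m + 2 * (k + 1) - 2 = j + 2 := by omega
    rw [h2, Nat.factorial_succ (j + 1), Nat.factorial_succ j, pow_succ, Nat.factorial_succ k]
    rw [hj] at h1
    have h3 : k + 1 ≤ j + 1 := by omega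
    have h4 : 2 ≤ j + 1 + 1 := by omega
    have h5 : 0 < j ! := Nat.factorial_pos j
    have h6 : 2 * (k + 1) ≤ (j + 1 + 1) * (j + 1) := by nlinarith
    calc 2 ^ k * 2 * ((k + 1) * k !) * m ! = (2 * (k + 1)) * (2 ^ k * k ! * m !) := by ring
      _ < (2 * (k + 1)) * (2 * j !) := by
        apply Nat.mul_lt_mul_of_pos_left h1 (by omega)
      _ ≤ ((j + 1 + 1) * (j + 1)) * (2 * j !) := Nat.mul_le_mul_right _ h6
      _ = 2 * ((j + 1 + 1) * ((j + 1) * j !)) := by ring

theorem nt (n k : ℕ) (hk : 1 ≤ k) (hkn : 2 * k ≤ n) (hn : n ≠ 6)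
    (h : 2 * (n - 2)! = 2 ^ k * k ! * (n - 2 * k)!) : k = 1 := by
  obtain ⟨m, rfl⟩ : ∃ m, n = m + 2 * k := ⟨n - 2 * k, by omega⟩
  have hm : m + 2 * k - 2 * k = m := by omega
  rw [hm] at h
  by_contra hk1
  have hk2 : 2 ≤ k := by omega
  rcases Nat.lt_or_ge k 4 with hk4 | hk4
  · have h5 : 0 < m ! := Nat.factorial_pos m
    interval_cases k
    · have e1 : m + 2 * 2 - 2 = m + 2 := by omega
      rw [e1, Nat.factorial_succ (m + 1), Nat.factorial_succ m] at h
      have h2 : (2 : ℕ)! = 2 := by decide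
      rw [h2] at h
      have h3 : (m + 1 + 1) * (m + 1) * m ! = 4 * m ! := by nlinarith
      have h4 := Nat.eq_of_mul_eq_mul_right h5 h3
      rcases Nat.eq_zero_or_pos m with rfl | hmpos
      · omega
      · nlinarith
    · have e1 : m + 2 * 3 - 2 = m + 4 := by omega
      rw [e1, Nat.factorial_succ (m + 3), Nat.factorial_succ (m + 2), Nat.factorial_succ (m + 1),
        Nat.factorial_succ m] at h
      have h2 : (3 : ℕ)! = 6 := by decide
      rw [h2] at h
      have h3 : (m + 3 + 1) * ((m + 2 + 1) * ((m + 1 + 1) * (m + 1))) * m ! = 24 * m ! := by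
        nlinarith
      have h4 := Nat.eq_of_mul_eq_mul_right h5 h3
      rcases Nat.eq_zero_or_pos m with rfl | hmpos
      · omega
      · have : 5 * (4 * (3 * 2)) ≤ (m + 3 + 1) * ((m + 2 + 1) * ((m + 1 + 1) * (m + 1))) := by
          apply Nat.mul_le_mul (by omega)
          apply Nat.mul_le_mul (by omega)
          apply Nat.mul_le_mul (by omega) (by omega)
        omega
  · have := fact_ineq k hk4 m
    omega

theorem card_centralizer_map {G G' : Type*} [Group G] [Group G'] (ψ : G ≃* G') (g : G) :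
    Nat.card (Subgroup.centralizer {ψ g}) = Nat.card (Subgroup.centralizer {g}) := by
  apply Nat.card_congr
  symm
  refine ψ.toEquiv.subtypeEquiv (fun h => ?_)
  simp only [Subgroup.mem_centralizer_singleton_iff]
  constructor
  · intro e
    show ψ h * ψ g = ψ g * ψ h
    rw [← map_mul, ← map_mul, e]
  · intro e
    apply ψ.injective
    rw [map_mul, map_mul]
    exact e

theorem isSwap_map {α β : Type*} [Fintype α] [DecidableEq α] [Fintype β] [DecidableEq β]
    (hαβ : Fintype.card α = Fintype.card β) (h6 : Fintype.card α ≠ 6)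
    (ψ : Perm α ≃* Perm β) {t : Perm α} (ht : t.IsSwap) : (ψ t).IsSwap := by
  have ho : orderOf (ψ t) = 2 := by rw [MulEquiv.orderOf_eq]; exact ht.orderOf
  obtain ⟨k, hk⟩ := Perm.cycleType_prime_order (σ := ψ t) (by rw [ho]; exact Nat.prime_two)
  rw [ho] at hk
  have hc1 := Perm.nat_card_centralizer (ψ t)
  have hc2 := Perm.nat_card_centralizer t
  rw [card_centralizer_map] at hc1
  rw [hc1] at hc2
  have e_sum : (Multiset.replicate (k + 1) 2).sum = 2 * (k + 1) := by
    simp [Multiset.sum_replicate]; ring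
  have e_prod : (Multiset.replicate (k + 1) 2).prod = 2 ^ (k + 1) := Multiset.prod_replicate _ _
  have e_fs : (Multiset.replicate (k + 1) 2).toFinset = {2} := by
    ext a
    rw [Multiset.mem_toFinset, Multiset.mem_replicate, Finset.mem_singleton]
    simp
  have e_cnt : Multiset.count 2 (Multiset.replicate (k + 1) 2) = k + 1 :=
    Multiset.count_replicate_self _ _
  rw [hk, e_sum, e_prod, e_fs, Finset.prod_singleton, e_cnt, Perm.isSwap_iff_cycleType.1 ht,
    Multiset.sum_singleton, Multiset.prod_singleton, Multiset.toFinset_singleton,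
    Finset.prod_singleton, Multiset.count_singleton_self] at hc2
  have hsum : 2 * (k + 1) ≤ Fintype.card β := by
    have := Perm.sum_cycleType_le (ψ t)
    rw [hk, e_sum] at this
    exact this
  have := nt (Fintype.card α) (k + 1) (by omega) (by omega) h6 (by
    rw [hαβ]
    rw [hαβ] at hc2
    simp only [Nat.factorial_one, mul_one] at hc2
    linarith)
  rw [Perm.isSwap_iff_cycleType, hk, this]
  rfl

variable {Ω : Type*} [DecidableEq Ω]

theorem commute_swap_of_fix {t : Perm Ω} {x y : Ω} (hx : t x = x) (hy : t y = y) :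
    Commute t (swap x y) := by
  have := Equiv.swap_apply_apply t x y
  rw [hx, hy] at this
  show t * swap x y = swap x y * t
  calc t * swap x y = (t * swap x y * t⁻¹) * t := by group
    _ = swap x y * t := by rw [← this]

theorem isSwap_eq_of_moves {t : Perm Ω} (ht : t.IsSwap) {x : Ω} (hx : t x ≠ x) :
    ∃ z, z ≠ x ∧ t = swap x z := by
  obtain ⟨c, d, hcd, rfl⟩ := ht
  by_cases h1 : x = c
  · exact ⟨d, by rw [h1]; exact hcd.symm, by rw [h1]⟩
  · by_cases h2 : x = d
    · exact ⟨c, by rw [h2]; exact hcd, by rw [h2, swap_comm]⟩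
    · exact absurd (swap_apply_of_ne_of_ne h1 h2) hx

theorem star {ι : Type*} [Fintype ι] (hι : 4 ≤ Fintype.card ι) (τ : ι → Perm Ω)
    (hs : ∀ i, (τ i).IsSwap) (hnc : ∀ i j, i ≠ j → ¬ Commute (τ i) (τ j)) :
    ∃ x, ∀ i, τ i x ≠ x := by
  classical
  obtain ⟨i1, i2, h12⟩ : ∃ i1 i2 : ι, i1 ≠ i2 := Fintype.exists_pair_of_one_lt_card (by omega)
  obtain ⟨a, b, hab, h1⟩ := hs i1
  have hmv : τ i2 a ≠ a ∨ τ i2 b ≠ b := by
    by_contra hcon
    push Not at hcon
    exact hnc i2 i1 h12.symm (by rw [h1]; exact commute_swap_of_fix hcon.1 hcon.2)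
  obtain ⟨x, y, hxy, h1', hx2⟩ : ∃ x y, x ≠ y ∧ τ i1 = swap x y ∧ τ i2 x ≠ x := by
    rcases hmv with h | h
    · exact ⟨a, b, hab, h1, h⟩
    · exact ⟨b, a, hab.symm, by rw [h1, swap_comm], h⟩
  obtain ⟨z, hzx, h2⟩ := isSwap_eq_of_moves (hs i2) hx2
  have hyz : y ≠ z := by
    rintro rfl
    exact hnc i1 i2 h12 (by rw [h1', h2])
  refine ⟨x, ?_⟩
  have key : ∀ i, τ i x = x → τ i = swap y z := by
    intro i hix
    have hi1 : i ≠ i1 := by
      rintro rfl
      rw [h1', swap_apply_left] at hix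
      exact hxy hix.symm
    have hi2 : i ≠ i2 := by
      rintro rfl
      exact hx2 hix
    have hy : τ i y ≠ y := fun hy =>
      hnc i i1 hi1 (by rw [h1']; exact commute_swap_of_fix hix hy)
    have hz : τ i z ≠ z := fun hz =>
      hnc i i2 hi2 (by rw [h2]; exact commute_swap_of_fix hix hz)
    obtain ⟨w, hwy, hw⟩ := isSwap_eq_of_moves (hs i) hy
    rw [hw] at hz ⊢
    by_cases hzw : z = w
    · rw [hzw]
    · exact absurd (swap_apply_of_ne_of_ne (Ne.symm hyz) hzw) hz
  intro i hix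
  have hi := key i hix
  obtain ⟨j, hj1, hj2, hj3⟩ : ∃ j, j ≠ i1 ∧ j ≠ i2 ∧ j ≠ i := by
    by_contra hcon
    push Not at hcon
    have hsub : (Finset.univ : Finset ι) ⊆ {i1, i2, i} := fun j _ => by
      by_cases c1 : j = i1
      · simp [c1]
      by_cases c2 : j = i2
      · simp [c2]
      simp [hcon j c1 c2]
    have h3 := Finset.card_le_card hsub
    have h4 : ({i1, i2, i} : Finset ι).card ≤ 3 := Finset.card_le_three
    rw [Finset.card_univ] at h3
    omega
  have hjx : τ j x ≠ x := by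
    intro h
    have := key j h
    exact hnc j i hj3 (by rw [this, hi])
  obtain ⟨w, hwx, hw⟩ := isSwap_eq_of_moves (hs j) hjx
  have hwy : w ≠ y := by
    rintro rfl
    exact hnc j i1 hj1 (by rw [hw, h1'])
  have hwz : w ≠ z := by
    rintro rfl
    exact hnc j i2 hj2 (by rw [hw, h2])
  apply hnc i j (Ne.symm hj3)
  rw [hi, hw]
  exact commute_swap_of_fix (swap_apply_of_ne_of_ne hxy (Ne.symm hzx))
    (swap_apply_of_ne_of_ne hwy hwz)

variable [Fintype Ω]

/-- a subgroup of index `n` fixing a point is the stabilizer of that point -/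
theorem eq_stab_of_fix (H : Subgroup (Perm Ω)) (hH : H.index = Fintype.card Ω) (x : Ω)
    (hfix : ∀ h ∈ H, h x = x) : H = stabilizer (Perm Ω) x := by
  have hle : H ≤ stabilizer (Perm Ω) x := fun h hh => hfix h hh
  apply Subgroup.eq_of_le_of_card_ge hle
  have h1 := Subgroup.card_mul_index H
  have h2 := Subgroup.card_mul_index (stabilizer (Perm Ω) x)
  rw [MulAction.index_stabilizer_of_transitive, Nat.card_eq_fintype_card (α := Ω)] at h2
  rw [hH] at h1
  have hpos : 0 < Fintype.card Ω := Fintype.card_pos_iff.2 ⟨x⟩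
  have : Nat.card (stabilizer (Perm Ω) x) * Fintype.card Ω = Nat.card H * Fintype.card Ω := by
    rw [h1, h2]
  exact (Nat.eq_of_mul_eq_mul_right hpos this).le

theorem eq_stab_of_le (H : Subgroup (Perm Ω)) (hH : H.index = Fintype.card Ω) (x : Ω)
    (hle : stabilizer (Perm Ω) x ≤ H) : H = stabilizer (Perm Ω) x := by
  symm
  apply Subgroup.eq_of_le_of_card_ge hle
  have h1 := Subgroup.card_mul_index H
  have h2 := Subgroup.card_mul_index (stabilizer (Perm Ω) x)
  rw [MulAction.index_stabilizer_of_transitive, Nat.card_eq_fintype_card (α := Ω)] at h2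
  rw [hH] at h1
  have hpos : 0 < Fintype.card Ω := Fintype.card_pos_iff.2 ⟨x⟩
  have : Nat.card H * Fintype.card Ω = Nat.card (stabilizer (Perm Ω) x) * Fintype.card Ω := by
    rw [h1, h2]
  exact (Nat.eq_of_mul_eq_mul_right hpos this).le

theorem main_large (h5 : 5 ≤ Fintype.card Ω) (h6 : Fintype.card Ω ≠ 6) (H : Subgroup (Perm Ω))
    (hH : H.index = Fintype.card Ω) : ∃ x : Ω, H = stabilizer (Perm Ω) x := by
  classical
  have : Nontrivial Ω := Fintype.one_lt_card_iff_nontrivial.1 (by omega)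
  let X := Perm Ω ⧸ H
  let _ : Fintype X := Fintype.ofFinite X
  have hX : Fintype.card X = Fintype.card Ω := by
    rw [← hH, Subgroup.index, Nat.card_eq_fintype_card]
  let ψ₀ : Perm Ω →* Perm X := MulAction.toPermHom (Perm Ω) X
  have hinj : Function.Injective ψ₀ := by
    rw [← MonoidHom.ker_eq_bot_iff, ← Subgroup.normalCore_eq_ker]
    by_contra hne
    have hnt : Nontrivial H.normalCore := (Subgroup.nontrivial_iff_ne_bot _).2 hne
    have hA := Perm.alternatingGroup_le_of_normal (by rw [Nat.card_eq_fintype_card]; exact h5) hnt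
    have hAH : alternatingGroup Ω ≤ H := hA.trans (Subgroup.normalCore_le H)
    have hd := Subgroup.index_dvd_of_le hAH
    rw [alternatingGroup.index_eq_two, hH] at hd
    have := Nat.le_of_dvd (by norm_num) hd
    omega
  have hbij : Function.Bijective ψ₀ := by
    rw [Fintype.bijective_iff_injective_and_card]
    refine ⟨hinj, ?_⟩
    rw [Fintype.card_perm, Fintype.card_perm, hX]
  let ψ : Perm Ω ≃* Perm X := MulEquiv.ofBijective ψ₀ hbij
  let ω₀ : X := ((1 : Perm Ω) : X)
  have hHmem : ∀ g, g ∈ H ↔ ψ g ω₀ = ω₀ := by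
    intro g
    have h1 : g ∈ H ↔ g ∈ stabilizer (Perm Ω) ω₀ := by rw [MulAction.stabilizer_quotient H]
    rw [h1, mem_stabilizer_iff]
    rfl
  have hsw : ∀ t : Perm Ω, t.IsSwap → (ψ t).IsSwap := fun t ht => isSwap_map hX.symm h6 ψ ht
  have hsw' : ∀ s : Perm X, s.IsSwap → (ψ.symm s).IsSwap :=
    fun s hs => isSwap_map hX (by rw [hX]; exact h6) ψ.symm hs
  let ι := {ω : X // ω ≠ ω₀}
  have hι : 4 ≤ Fintype.card ι := by
    have : Fintype.card ι = Fintype.card X - 1 := by
      simp only [ι]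
      rw [Fintype.card_subtype_compl, Fintype.card_subtype_eq]
    omega
  let τ : ι → Perm Ω := fun ω => ψ.symm (swap ω₀ ω.1)
  have hτs : ∀ i, (τ i).IsSwap := fun i => hsw' _ ⟨ω₀, i.1, i.2.symm, rfl⟩
  have hτnc : ∀ i j, i ≠ j → ¬ Commute (τ i) (τ j) := by
    intro i j hij hc
    have hc' : Commute (swap ω₀ i.1) (swap ω₀ j.1) := by
      have := hc.map ψ
      simpa [τ] using this
    have h1 := congrArg (fun p : Perm X => p j.1) hc'.eq
    simp only [Perm.mul_apply, swap_apply_right] at h1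
    rw [swap_apply_left, swap_apply_of_ne_of_ne j.2 (fun h => hij (Subtype.ext h.symm)),
      swap_apply_right] at h1
    exact i.2 h1
  obtain ⟨x, hx⟩ := star hι τ hτs hτnc
  refine ⟨x, ?_⟩
  have hswH : ∀ u v : Ω, u ≠ x → v ≠ x → u ≠ v → swap u v ∈ H := by
    intro u v hu hv huv
    rw [hHmem]
    by_contra hne
    obtain ⟨ω, hω, he⟩ := isSwap_eq_of_moves (hsw _ ⟨u, v, huv, rfl⟩) hne
    have h2 : swap u v = τ ⟨ω, hω⟩ := by
      simp only [τ]
      rw [← he, MulEquiv.symm_apply_apply]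
    have h1 := hx ⟨ω, hω⟩
    rw [← h2, swap_apply_of_ne_of_ne (Ne.symm hu) (Ne.symm hv)] at h1
    exact h1 rfl
  apply eq_stab_of_le H hH x
  intro g hg
  rw [mem_stabilizer_iff] at hg
  have hg' : g x = x := hg
  have hp : ∀ y, g y ≠ x ↔ y ≠ x := by
    intro y
    constructor
    · intro hy h
      apply hy
      rw [h, hg']
    · intro hy h
      apply hy
      apply g.injective
      rw [h, hg']
  have hcomap : (H.comap (Perm.ofSubtype : Perm {y // y ≠ x} →* Perm Ω)) = ⊤ := by
    rw [eq_top_iff, ← Perm.closure_isSwap, Subgroup.closure_le]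
    rintro s ⟨u, v, huv, rfl⟩
    show Perm.ofSubtype (swap u v) ∈ H
    rw [Perm.ofSubtype_swap_eq]
    exact hswH u v u.2 v.2 (fun h => huv (Subtype.ext h))
  have h3 : Perm.ofSubtype (g.subtypePerm (p := fun y => y ≠ x) hp) ∈ H := by
    have : g.subtypePerm (p := fun y => y ≠ x) hp ∈ H.comap Perm.ofSubtype := by
      rw [hcomap]; trivial
    exact this
  rwa [Perm.ofSubtype_subtypePerm] at h3
  intro y hy h
  rw [h] at hy
  exact hy hg'

theorem small_fix (p j : ℕ) (hp : p.Prime) (hj1 : 1 ≤ j) (hj : j ≤ 2)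
    (hc : Fintype.card Ω = p + 1) (H : Subgroup (Perm Ω)) (hH : Nat.card H = p * j) :
    ∃ x : Ω, ∀ h ∈ H, h x = x := by
  have : Fact p.Prime := ⟨hp⟩
  obtain ⟨c, hc3⟩ := exists_prime_orderOf_dvd_card' p (G := H)
    (by rw [hH]; exact dvd_mul_right p j)
  have hco : orderOf (c : Perm Ω) = p := by rw [Subgroup.orderOf_coe]; exact hc3
  obtain ⟨k, hk⟩ := Perm.cycleType_prime_order (σ := (c : Perm Ω)) (by rw [hco]; exact hp)
  rw [hco] at hk
  have hk0 : k = 0 := by
    have h1 := Perm.sum_cycleType_le (c : Perm Ω)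
    rw [hk, Multiset.sum_replicate, smul_eq_mul, hc] at h1
    have h2 := hp.two_le
    by_contra hk
    have h3 : 2 ≤ k + 1 := by omega
    nlinarith
  have hfp : Fintype.card (Function.fixedPoints (c : Perm Ω)) = 1 := by
    rw [Perm.card_fixedPoints, hk, hk0, hc]
    simp
  obtain ⟨⟨x, hx⟩, hxu⟩ := Fintype.card_eq_one_iff.1 hfp
  refine ⟨x, ?_⟩
  have hN : (Subgroup.zpowers c).Normal := by
    have h1 := Subgroup.card_mul_index (Subgroup.zpowers c)
    rw [Nat.card_zpowers, hc3, hH] at h1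
    have h2 : (Subgroup.zpowers c).index = j := Nat.eq_of_mul_eq_mul_left hp.pos h1
    rcases (by omega : j = 1 ∨ j = 2) with h | h
    · rw [h, Subgroup.index_eq_one] at h2
      rw [h2]
      infer_instance
    · rw [h] at h2
      exact Subgroup.normal_of_index_eq_two h2
  intro h hh
  have hconj := hN.conj_mem c (Subgroup.mem_zpowers c) (⟨h, hh⟩ : H)⁻¹
  obtain ⟨m, hm⟩ := Subgroup.mem_zpowers_iff.1 hconj
  have hm' : ((c : Perm Ω) ^ m) = h⁻¹ * (c : Perm Ω) * h := by
    have := congrArg (Subtype.val) hm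
    simpa using this
  have h1 : ((c : Perm Ω) ^ m) x = x := Perm.zpow_apply_eq_self_of_apply_eq_self hx m
  rw [hm'] at h1
  have h2 : (c : Perm Ω) (h x) = h x := by
    have := congrArg h h1
    simpa [Perm.mul_apply] using this
  have := hxu ⟨h x, h2⟩
  exact congrArg Subtype.val this

theorem main (h6 : Fintype.card Ω ≠ 6) (H : Subgroup (Perm Ω))
    (hH : H.index = Fintype.card Ω) : ∃ x : Ω, H = stabilizer (Perm Ω) x := by
  rcases Nat.lt_or_ge (Fintype.card Ω) 5 with hlt | hge
  · have hcard := Subgroup.card_mul_index H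
    rw [hH, Nat.card_eq_fintype_card (α := Perm Ω), Fintype.card_perm] at hcard
    have hn0 : Fintype.card Ω ≠ 0 := by
      intro h0
      rw [h0] at hH
      exact Subgroup.index_ne_zero_of_finite hH
    suffices ∃ x : Ω, ∀ h ∈ H, h x = x by
      obtain ⟨x, hx⟩ := this
      exact ⟨x, eq_stab_of_fix H hH x hx⟩
    have hne : Nonempty Ω := Fintype.card_pos_iff.1 (by omega)
    obtain ⟨n, hn⟩ : ∃ n, Fintype.card Ω = n := ⟨_, rfl⟩
    rw [hn] at hcard hlt hn0
    have f1 : (1 : ℕ)! = 1 := rfl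
    have f2 : (2 : ℕ)! = 2 := rfl
    have f3 : (3 : ℕ)! = 6 := rfl
    have f4 : (4 : ℕ)! = 24 := rfl
    interval_cases n
    · exact absurd rfl hn0
    · have h1 : Nat.card H = 1 := by omega
      have hbot := Subgroup.eq_bot_of_card_eq H h1
      obtain ⟨x⟩ := hne
      exact ⟨x, fun h hh => by rw [hbot, Subgroup.mem_bot] at hh; rw [hh]; rfl⟩
    · have h1 : Nat.card H = 1 := by omega
      have hbot := Subgroup.eq_bot_of_card_eq H h1
      obtain ⟨x⟩ := hne
      exact ⟨x, fun h hh => by rw [hbot, Subgroup.mem_bot] at hh; rw [hh]; rfl⟩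
    · have h1 : Nat.card H = 2 * 1 := by omega
      exact small_fix 2 1 Nat.prime_two le_rfl (by norm_num) hn H h1
    · have h1 : Nat.card H = 3 * 2 := by omega
      exact small_fix 3 2 Nat.prime_three (by norm_num) le_rfl hn H h1
  · exact main_large hge h6 H hH

end Cfsg.Agent.Lib.Helper9.SymIndex
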