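import Mathlib
import Cfsg.Agent.Lib.Helper9.SymIndex

set_option autoImplicit false
set_option linter.unusedSectionVars false

namespace Cfsg.Agent.Lib.Helper9.SymSix

open Equiv MulAction

universe u

variable {Ω : Type u} [DecidableEq Ω] [Fintype Ω]

/-- the coset action of a subgroup of index `n` of `Sym(n)`, `n ≥ 5`, as an isomorphism onto
`Sym(Fin n)` under which the subgroup is the stabilizer of `0`. -/
theorem exists_cosetIso (n : ℕ) (hn : Fintype.card Ω = n) (h0 : 0 < n) (h5 : 5 ≤ n)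
    (H : Subgroup (Perm Ω)) (hH : H.index = n) :
    ∃ ψ : Perm Ω ≃* Perm (Fin n), ∀ g, g ∈ H ↔ ψ g ⟨0, h0⟩ = ⟨0, h0⟩ := by
  classical
  have : Nontrivial Ω := Fintype.one_lt_card_iff_nontrivial.1 (by omega)
  let X := Perm Ω ⧸ H
  let _ : Fintype X := Fintype.ofFinite X
  have hX : Fintype.card X = n := by
    rw [← hH, Subgroup.index, Nat.card_eq_fintype_card]
  let ψ₀ : Perm Ω →* Perm X := MulAction.toPermHom (Perm Ω) X
  have hinj : Function.Injective ψ₀ := by
    rw [← MonoidHom.ker_eq_bot_iff, ← Subgroup.normalCore_eq_ker]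
    by_contra hne
    have hnt : Nontrivial H.normalCore := (Subgroup.nontrivial_iff_ne_bot _).2 hne
    have hA := Perm.alternatingGroup_le_of_normal
      (by rw [Nat.card_eq_fintype_card, hn]; exact h5) hnt
    have hAH : alternatingGroup Ω ≤ H := hA.trans (Subgroup.normalCore_le H)
    have hd := Subgroup.index_dvd_of_le hAH
    rw [alternatingGroup.index_eq_two, hH] at hd
    have := Nat.le_of_dvd (by norm_num) hd
    omega
  have hbij : Function.Bijective ψ₀ := by
    rw [Fintype.bijective_iff_injective_and_card]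
    refine ⟨hinj, ?_⟩
    rw [Fintype.card_perm, Fintype.card_perm, hX, hn]
  let ψ₁ : Perm Ω ≃* Perm X := MulEquiv.ofBijective ψ₀ hbij
  let ω₀ : X := ((1 : Perm Ω) : X)
  have hHmem : ∀ g, g ∈ H ↔ ψ₁ g ω₀ = ω₀ := by
    intro g
    have h1 : g ∈ H ↔ g ∈ stabilizer (Perm Ω) ω₀ := by rw [MulAction.stabilizer_quotient H]
    rw [h1, mem_stabilizer_iff]
    rfl
  let e₀ : X ≃ Fin n := Fintype.equivFinOfCardEq hX
  let e : X ≃ Fin n := e₀.trans (swap (e₀ ω₀) ⟨0, h0⟩)
  have he : e ω₀ = ⟨0, h0⟩ := by simp [e]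
  refine ⟨ψ₁.trans e.permCongrHom, fun g => ?_⟩
  rw [hHmem]
  show ψ₁ g ω₀ = ω₀ ↔ e.permCongr (ψ₁ g) ⟨0, h0⟩ = ⟨0, h0⟩
  rw [Equiv.permCongr_apply, ← he, e.symm_apply_apply, e.apply_eq_iff_eq]

theorem cycleType_map_eq {α β : Type*} [Fintype α] [DecidableEq α] [Fintype β] [DecidableEq β]
    (ψ : Perm α ≃* Perm β) {g g' : Perm α} (h : g.cycleType = g'.cycleType) :
    (ψ g).cycleType = (ψ g').cycleType := by
  obtain ⟨c, hc⟩ := isConj_iff.1 (Perm.isConj_iff_cycleType_eq.2 h)
  rw [← hc, map_mul, map_mul, map_inv, Perm.cycleType_conj]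

theorem swap_or_222 {α β : Type*} [Fintype α] [DecidableEq α] [Fintype β] [DecidableEq β]
    (hα : Fintype.card α = 6) (hβ : Fintype.card β = 6)
    (ψ : Perm α ≃* Perm β) {t : Perm α} (ht : t.IsSwap) :
    (ψ t).IsSwap ∨ (ψ t).cycleType = {2, 2, 2} := by
  have ho : orderOf (ψ t) = 2 := by rw [MulEquiv.orderOf_eq]; exact ht.orderOf
  obtain ⟨k, hk⟩ := Perm.cycleType_prime_order (σ := ψ t) (by rw [ho]; exact Nat.prime_two)
  rw [ho] at hk
  have hc1 := Perm.nat_card_centralizer (ψ t)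
  have hc2 := Perm.nat_card_centralizer t
  rw [SymIndex.card_centralizer_map] at hc1
  rw [hc1] at hc2
  have e_sum : (Multiset.replicate (k + 1) 2).sum = 2 * (k + 1) := by
    simp [Multiset.sum_replicate]; ring
  have e_prod : (Multiset.replicate (k + 1) 2).prod = 2 ^ (k + 1) := Multiset.prod_replicate _ _
  have e_fs : (Multiset.replicate (k + 1) 2).toFinset = {2} := by
    ext a
    rw [Multiset.mem_toFinset, Multiset.mem_replicate, Finset.mem_singleton]
    simp
  have e_cnt : Multiset.count 2 (Multiset.replicate (k + 1) 2) = k + 1 :=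
    Multiset.count_replicate_self _ _
  rw [hk, e_sum, e_prod, e_fs, Finset.prod_singleton, e_cnt, Perm.isSwap_iff_cycleType.1 ht,
    Multiset.sum_singleton, Multiset.prod_singleton, Multiset.toFinset_singleton,
    Finset.prod_singleton, Multiset.count_singleton_self, hα, hβ] at hc2
  have hsum : 2 * (k + 1) ≤ 6 := by
    have := Perm.sum_cycleType_le (ψ t)
    rw [hk, e_sum, hβ] at this
    exact this
  have hk2 : k ≤ 2 := by omega
  interval_cases k
  · left
    rw [Perm.isSwap_iff_cycleType, hk]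
    rfl
  · exfalso
    norm_num [Nat.factorial] at hc2
  · right
    rw [hk]
    rfl

theorem stab_le_of_swaps {X : Type*} [Fintype X] [DecidableEq X]
    (hX : Fintype.card X = Fintype.card Ω) (h5 : 5 ≤ Fintype.card Ω)
    (ψ : Perm Ω ≃* Perm X) (ω₀ : X) (hsw : ∀ t : Perm Ω, t.IsSwap → (ψ t).IsSwap)
    (hsw' : ∀ s : Perm X, s.IsSwap → (ψ.symm s).IsSwap)
    (H : Subgroup (Perm Ω)) (hHmem : ∀ g, g ∈ H ↔ ψ g ω₀ = ω₀) :
    ∃ x : Ω, stabilizer (Perm Ω) x ≤ H := by
  classical
  let ι := {ω : X // ω ≠ ω₀}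
  have hι : 4 ≤ Fintype.card ι := by
    have : Fintype.card ι = Fintype.card X - 1 := by
      simp only [ι]
      rw [Fintype.card_subtype_compl, Fintype.card_subtype_eq]
    omega
  let τ : ι → Perm Ω := fun ω => ψ.symm (swap ω₀ ω.1)
  have hτs : ∀ i, (τ i).IsSwap := fun i => hsw' _ ⟨ω₀, i.1, i.2.symm, rfl⟩
  have hτnc : ∀ i j, i ≠ j → ¬ Commute (τ i) (τ j) := by
    intro i j hij hc
    have hc' : Commute (swap ω₀ i.1) (swap ω₀ j.1) := by
      have := hc.map ψ
      simpa [τ] using this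
    have h1 := congrArg (fun p : Perm X => p j.1) hc'.eq
    simp only [Perm.mul_apply, swap_apply_right] at h1
    rw [swap_apply_left, swap_apply_of_ne_of_ne j.2 (fun h => hij (Subtype.ext h.symm)),
      swap_apply_right] at h1
    exact i.2 h1
  obtain ⟨x, hx⟩ := SymIndex.star hι τ hτs hτnc
  refine ⟨x, ?_⟩
  have hswH : ∀ u v : Ω, u ≠ x → v ≠ x → u ≠ v → swap u v ∈ H := by
    intro u v hu hv huv
    rw [hHmem]
    by_contra hne
    obtain ⟨ω, hω, he⟩ := SymIndex.isSwap_eq_of_moves (hsw _ ⟨u, v, huv, rfl⟩) hne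
    have h2 : swap u v = τ ⟨ω, hω⟩ := by
      simp only [τ]
      rw [← he, MulEquiv.symm_apply_apply]
    have h1 := hx ⟨ω, hω⟩
    rw [← h2, swap_apply_of_ne_of_ne (Ne.symm hu) (Ne.symm hv)] at h1
    exact h1 rfl
  intro g hg
  rw [mem_stabilizer_iff] at hg
  have hg' : g x = x := hg
  have hp : ∀ y, g y ≠ x ↔ y ≠ x := by
    intro y
    constructor
    · intro hy h
      apply hy
      rw [h, hg']
    · intro hy h
      apply hy
      apply g.injective
      rw [h, hg']
  have hcomap : (H.comap (Perm.ofSubtype : Perm {y // y ≠ x} →* Perm Ω)) = ⊤ := by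
    rw [eq_top_iff, ← Perm.closure_isSwap, Subgroup.closure_le]
    rintro s ⟨u, v, huv, rfl⟩
    show Perm.ofSubtype (swap u v) ∈ H
    rw [Perm.ofSubtype_swap_eq]
    exact hswH u v u.2 v.2 (fun h => huv (Subtype.ext h))
  have h3 : Perm.ofSubtype (g.subtypePerm (p := fun y => y ≠ x) hp) ∈ H := by
    have : g.subtypePerm (p := fun y => y ≠ x) hp ∈ H.comap Perm.ofSubtype := by
      rw [hcomap]; trivial
    exact this
  rwa [Perm.ofSubtype_subtypePerm] at h3
  intro y hy h
  rw [h] at hy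
  exact hy hg'

theorem stab_of_swap_to_swap (n : ℕ) (hn : Fintype.card Ω = n) (h0 : 0 < n) (h5 : 5 ≤ n)
    (H : Subgroup (Perm Ω)) (hH : H.index = n) (ψ : Perm Ω ≃* Perm (Fin n))
    (hψ : ∀ g, g ∈ H ↔ ψ g ⟨0, h0⟩ = ⟨0, h0⟩) (t₀ : Perm Ω) (ht₀ : t₀.IsSwap)
    (h : (ψ t₀).IsSwap) : ∃ x : Ω, H = stabilizer (Perm Ω) x := by
  have hsw : ∀ t : Perm Ω, t.IsSwap → (ψ t).IsSwap := by
    intro t ht
    rw [Perm.isSwap_iff_cycleType] at ht ht₀ h ⊢
    rw [cycleType_map_eq ψ (ht.trans ht₀.symm), h]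
  have hsw' : ∀ s : Perm (Fin n), s.IsSwap → (ψ.symm s).IsSwap := by
    intro s hs
    rw [Perm.isSwap_iff_cycleType] at hs ht₀ h ⊢
    rw [cycleType_map_eq ψ.symm (hs.trans h.symm), MulEquiv.symm_apply_apply, ht₀]
  obtain ⟨x, hx⟩ := stab_le_of_swaps (by rw [Fintype.card_fin, hn]) (by omega) ψ ⟨0, h0⟩ hsw hsw' H hψ
  exact ⟨x, SymIndex.eq_stab_of_le H (by rw [hH, hn]) x hx⟩

/-- an automorphism of `Sym(Ω)` preserving transpositions is inner -/
theorem inner_of_swaps (h5 : 5 ≤ Fintype.card Ω) (α : Perm Ω ≃* Perm Ω)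
    (hα : ∀ t : Perm Ω, t.IsSwap → (α t).IsSwap) : ∃ g : Perm Ω, ∀ p, α p = g * p * g⁻¹ := by
  classical
  have hstar : ∀ x : Ω, ∃ c : Ω, ∀ y, y ≠ x → α (swap x y) c ≠ c := by
    intro x
    let ι := {y : Ω // y ≠ x}
    have hι : 4 ≤ Fintype.card ι := by
      have : Fintype.card ι = Fintype.card Ω - 1 := by
        simp only [ι]
        rw [Fintype.card_subtype_compl, Fintype.card_subtype_eq]
      omega
    obtain ⟨c, hc⟩ := SymIndex.star hι (fun y : ι => α (swap x y.1))
      (fun y => hα _ ⟨x, y.1, y.2.symm, rfl⟩) (by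
        intro i j hij hc
        have hc' : Commute (swap x i.1) (swap x j.1) := by
          have := hc.map α.symm
          simpa using this
        have h1 := congrArg (fun p : Perm Ω => p j.1) hc'.eq
        simp only [Perm.mul_apply, swap_apply_right] at h1
        rw [swap_apply_left, swap_apply_of_ne_of_ne j.2 (fun h => hij (Subtype.ext h.symm)),
          swap_apply_right] at h1
        exact i.2 h1)
    exact ⟨c, fun y hy => hc ⟨y, hy⟩⟩
  choose g hg using hstar
  have hmv : ∀ x y, x ≠ y → α (swap x y) (g x) ≠ g x ∧ α (swap x y) (g y) ≠ g y := by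
    intro x y hxy
    refine ⟨hg x y hxy.symm, ?_⟩
    rw [swap_comm]
    exact hg y x hxy
  have hinj : Function.Injective g := by
    intro x y hgxy
    by_contra hxy
    have hw : ∀ z : {z : Ω // z ≠ x}, ∃ w, w ≠ g x ∧ α (swap x z.1) = swap (g x) w := fun z =>
      SymIndex.isSwap_eq_of_moves (hα _ ⟨x, z.1, z.2.symm, rfl⟩) (hg x z.1 z.2)
    choose w hw1 hw2 using hw
    let F : {z : Ω // z ≠ x} → {w : Ω // w ≠ g x} := fun z => ⟨w z, hw1 z⟩
    have hF : Function.Injective F := by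
      intro z z' h
      have h' : w z = w z' := congrArg Subtype.val h
      have h1 : α (swap x z.1) = α (swap x z'.1) := by rw [hw2, hw2, h']
      have h2 := congrArg (fun p : Perm Ω => p x) (α.injective h1)
      simp only [swap_apply_left] at h2
      exact Subtype.ext h2
    have hFs : Function.Surjective F := by
      have := (Fintype.bijective_iff_injective_and_card F).2 ⟨hF, by
        rw [Fintype.card_subtype_compl, Fintype.card_subtype_compl]
        simp⟩
      exact this.2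
    obtain ⟨z₀, hz0x, hz0y⟩ : ∃ z₀, z₀ ≠ x ∧ z₀ ≠ y := by
      by_contra hcon
      push Not at hcon
      have hsub : (Finset.univ : Finset Ω) ⊆ {x, y} := fun z _ => by
        by_cases c1 : z = x
        · simp [c1]
        · simp [hcon z c1]
      have h3 := Finset.card_le_card hsub
      have h4 : ({x, y} : Finset Ω).card ≤ 2 := Finset.card_le_two
      rw [Finset.card_univ] at h3
      omega
    have h1 : α (swap y z₀) (g y) ≠ g y := hg y z₀ hz0y
    rw [← hgxy] at h1
    obtain ⟨w', hw', he⟩ := SymIndex.isSwap_eq_of_moves (hα _ ⟨y, z₀, hz0y.symm, rfl⟩) h1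
    obtain ⟨z, hz⟩ := hFs ⟨w', hw'⟩
    have hz' : w z = w' := congrArg Subtype.val hz
    have h2 : α (swap y z₀) = α (swap x z.1) := by rw [he, hw2, hz']
    have h3 := congrArg (fun p : Perm Ω => p x) (α.injective h2)
    simp only [swap_apply_left] at h3
    rw [swap_apply_of_ne_of_ne hxy (Ne.symm hz0x)] at h3
    exact z.2 h3.symm
  have hbij : Function.Bijective g := Finite.injective_iff_bijective.1 hinj
  let g' : Perm Ω := Equiv.ofBijective g hbij
  refine ⟨g', ?_⟩
  have key : ∀ x y, x ≠ y → α (swap x y) = swap (g x) (g y) := by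
    intro x y hxy
    obtain ⟨h1, h2⟩ := hmv x y hxy
    obtain ⟨w, hw, he⟩ := SymIndex.isSwap_eq_of_moves (hα _ ⟨x, y, hxy, rfl⟩) h1
    rw [he] at h2 ⊢
    by_cases hyw : g y = w
    · rw [hyw]
    · exact absurd (swap_apply_of_ne_of_ne (fun h => hxy (hinj h).symm) hyw) h2
  have hhom : α.toMonoidHom = (MulAut.conj g').toMonoidHom := by
    apply MonoidHom.eq_of_eqOn_dense Perm.closure_isSwap
    rintro t ⟨x, y, hxy, rfl⟩
    show α (swap x y) = g' * swap x y * g'⁻¹
    rw [key x y hxy, ← Equiv.swap_apply_apply]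
    rfl
  intro p
  have := congrArg (fun f => f p) hhom
  exact this

/-- two subgroups of index 6 of `Sym(6)` which are not point stabilizers are conjugate -/
theorem exotic_conj (h6 : Fintype.card Ω = 6) (H₁ H₂ : Subgroup (Perm Ω)) (h1 : H₁.index = 6)
    (h2 : H₂.index = 6) (hn1 : ∀ x : Ω, H₁ ≠ stabilizer (Perm Ω) x)
    (hn2 : ∀ x : Ω, H₂ ≠ stabilizer (Perm Ω) x) :
    ∃ g : Perm Ω, Subgroup.map (MulAut.conj g).toMonoidHom H₁ = H₂ := by
  obtain ⟨ψ₁, hψ₁⟩ := exists_cosetIso 6 h6 (by norm_num) (by norm_num) H₁ h1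
  obtain ⟨ψ₂, hψ₂⟩ := exists_cosetIso 6 h6 (by norm_num) (by norm_num) H₂ h2
  obtain ⟨a, b, hab⟩ : ∃ a b : Ω, a ≠ b := Fintype.exists_pair_of_one_lt_card (by omega)
  have ht₀ : (swap a b).IsSwap := ⟨a, b, hab, rfl⟩
  have c1 : (ψ₁ (swap a b)).cycleType = {2, 2, 2} := by
    rcases swap_or_222 h6 (by simp) ψ₁ ht₀ with h | h
    · exfalso
      obtain ⟨x, hx⟩ := stab_of_swap_to_swap 6 h6 (by norm_num) (by norm_num) H₁ h1 ψ₁ hψ₁ _ ht₀ h
      exact hn1 x hx
    · exact h
  have c2 : (ψ₂ (swap a b)).cycleType = {2, 2, 2} := by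
    rcases swap_or_222 h6 (by simp) ψ₂ ht₀ with h | h
    · exfalso
      obtain ⟨x, hx⟩ := stab_of_swap_to_swap 6 h6 (by norm_num) (by norm_num) H₂ h2 ψ₂ hψ₂ _ ht₀ h
      exact hn2 x hx
    · exact h
  let α : Perm Ω ≃* Perm Ω := ψ₁.trans ψ₂.symm
  have hα : ∀ t : Perm Ω, t.IsSwap → (α t).IsSwap := by
    intro t ht
    rw [Perm.isSwap_iff_cycleType] at ht ⊢
    have e1 : (ψ₁ t).cycleType = (ψ₂ (swap a b)).cycleType := by
      rw [cycleType_map_eq ψ₁ (ht.trans (Perm.isSwap_iff_cycleType.1 ht₀).symm), c1, c2]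
    show (ψ₂.symm (ψ₁ t)).cycleType = {2}
    rw [cycleType_map_eq ψ₂.symm e1, MulEquiv.symm_apply_apply]
    exact Perm.isSwap_iff_cycleType.1 ht₀
  obtain ⟨g, hg⟩ := inner_of_swaps (by omega) α hα
  refine ⟨g, ?_⟩
  ext p
  rw [Subgroup.mem_map]
  constructor
  · rintro ⟨q, hq, rfl⟩
    show g * q * g⁻¹ ∈ H₂
    rw [← hg, hψ₂]
    show ψ₂ (ψ₂.symm (ψ₁ q)) _ = _
    rw [MulEquiv.apply_symm_apply]
    exact (hψ₁ q).1 hq
  · intro hp
    refine ⟨α.symm p, ?_, ?_⟩
    · rw [hψ₁]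
      show ψ₁ (ψ₁.symm (ψ₂ p)) _ = _
      rw [MulEquiv.apply_symm_apply]
      exact (hψ₂ p).1 hp
    · show g * α.symm p * g⁻¹ = p
      rw [← hg, MulEquiv.apply_symm_apply]

/-- existence of a subgroup of index 6 in `Sym(6)` which is not a point stabilizer -/
theorem exists_exotic (h6 : Fintype.card Ω = 6) :
    ∃ H : Subgroup (Perm Ω), H.index = 6 ∧ ∀ x : Ω, H ≠ stabilizer (Perm Ω) x := by
  classical
  have hp5 : Fact (Nat.Prime 5) := ⟨by norm_num⟩
  have hS : Nat.card (Perm (Fin 5)) = 120 := by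
    rw [Nat.card_eq_fintype_card, Fintype.card_perm]; rfl
  have hX : Nat.card (Sylow 5 (Perm (Fin 5))) = 6 := by
    obtain ⟨P⟩ : Nonempty (Sylow 5 (Perm (Fin 5))) := inferInstance
    have hP5 : Nat.card P = 5 := by
      obtain ⟨k, hk⟩ := IsPGroup.iff_card.1 P.isPGroup'
      have hdvd : Nat.card P ∣ 120 := by
        rw [← hS]; exact Subgroup.card_subgroup_dvd_card _
      have h5 : 5 ∣ Nat.card P := P.dvd_card_of_dvd_card (by rw [hS]; norm_num)
      rw [hk] at hdvd h5 ⊢
      have hk1 : k ≤ 1 := by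
        by_contra hcon
        have h25 : 5 ^ 2 ∣ 5 ^ k := pow_dvd_pow 5 (by omega)
        have := h25.trans hdvd
        norm_num at this
      interval_cases k
      · norm_num at h5
      · rfl
    have hidx : (P : Subgroup (Perm (Fin 5))).index = 24 := by
      have := Subgroup.card_mul_index (P : Subgroup (Perm (Fin 5)))
      rw [hP5, hS] at this
      omega
    have hdvd := Sylow.card_dvd_index P
    rw [hidx] at hdvd
    have hmod := card_sylow_modEq_one 5 (Perm (Fin 5))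
    have hle : Nat.card (Sylow 5 (Perm (Fin 5))) ≤ 24 := Nat.le_of_dvd (by norm_num) hdvd
    have hne1 : Nat.card (Sylow 5 (Perm (Fin 5))) ≠ 1 := by
      intro h1
      have hsub : Subsingleton (Sylow 5 (Perm (Fin 5))) := (Nat.card_eq_one_iff_unique.1 h1).1
      have hnorm : (P : Subgroup (Perm (Fin 5))).Normal := Sylow.normal_of_subsingleton P
      have hnt : Nontrivial (P : Subgroup (Perm (Fin 5))) :=
        (Subgroup.nontrivial_iff_ne_bot _).2 (P.ne_bot_of_dvd_card (by rw [hS]; norm_num))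
      have hA := Perm.alternatingGroup_le_of_normal (α := Fin 5) (by simp) hnt
      have hcl := Subgroup.card_le_of_le hA
      rw [hP5, nat_card_alternatingGroup] at hcl
      simp [Nat.factorial] at hcl
    unfold Nat.ModEq at hmod
    obtain ⟨m, hm⟩ : ∃ m, Nat.card (Sylow 5 (Perm (Fin 5))) = m := ⟨_, rfl⟩
    rw [hm] at hdvd hmod hle hne1 ⊢
    interval_cases m <;> simp_all
  let _ : Fintype (Sylow 5 (Perm (Fin 5))) := Fintype.ofFinite _
  let e : Sylow 5 (Perm (Fin 5)) ≃ Ω :=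
    Fintype.equivOfCardEq (by rw [← Nat.card_eq_fintype_card, hX, h6])
  let ρ₀ : Perm (Fin 5) →* Perm (Sylow 5 (Perm (Fin 5))) :=
    MulAction.toPermHom (Perm (Fin 5)) (Sylow 5 (Perm (Fin 5)))
  let ρ : Perm (Fin 5) →* Perm Ω := (e.permCongrHom.toMonoidHom).comp ρ₀
  have hinj0 : Function.Injective ρ₀ := by
    rw [← MonoidHom.ker_eq_bot_iff]
    by_contra hne
    have hnt : Nontrivial ρ₀.ker := (Subgroup.nontrivial_iff_ne_bot _).2 hne
    have hA := Perm.alternatingGroup_le_of_normal (α := Fin 5) (by simp) hnt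
    obtain ⟨P⟩ : Nonempty (Sylow 5 (Perm (Fin 5))) := inferInstance
    have hst : ρ₀.ker ≤ stabilizer (Perm (Fin 5)) P := by
      intro s hs
      rw [mem_stabilizer_iff]
      have h1 : ρ₀ s = 1 := hs
      have h2 := congrArg (fun f : Perm (Sylow 5 (Perm (Fin 5))) => f P) h1
      exact h2
    have hidx := MulAction.index_stabilizer_of_transitive (Perm (Fin 5)) P
    have hd := Subgroup.index_dvd_of_le (hA.trans hst)
    rw [hidx, hX, alternatingGroup.index_eq_two] at hd
    norm_num at hd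
  have hinj : Function.Injective ρ := e.permCongrHom.injective.comp hinj0
  refine ⟨ρ.range, ?_, ?_⟩
  · have hc : Nat.card ρ.range = 120 := by
      rw [← hS]
      exact (Nat.card_congr (MonoidHom.ofInjective hinj).toEquiv).symm
    have := Subgroup.card_mul_index ρ.range
    rw [hc, Nat.card_eq_fintype_card, Fintype.card_perm, h6] at this
    have h720 : (6 : ℕ).factorial = 720 := rfl
    omega
  · intro x hx
    obtain ⟨y, hy⟩ : ∃ y : Ω, y ≠ x := by
      have : Nontrivial Ω := Fintype.one_lt_card_iff_nontrivial.1 (by omega)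
      exact exists_ne x
    obtain ⟨s, hs⟩ := MulAction.exists_smul_eq (Perm (Fin 5)) (e.symm x) (e.symm y)
    have hmem : ρ s ∈ stabilizer (Perm Ω) x := by rw [← hx]; exact ⟨s, rfl⟩
    rw [mem_stabilizer_iff] at hmem
    have h1 : ρ s x = y := by
      show e (s • (e.symm x)) = y
      rw [hs, e.apply_symm_apply]
    exact hy (h1.symm.trans hmem)

theorem stab_equiv_perm {X : Type*} [Fintype X] [DecidableEq X] (ω₀ : X) (m : ℕ)
    (hm : Fintype.card X = m + 1) : Nonempty (stabilizer (Perm X) ω₀ ≃* Perm (Fin m)) := by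
  let θ : Perm {y : X // y ≠ ω₀} →* Perm X := Perm.ofSubtype
  have hθ : Function.Injective θ := Perm.ofSubtype_injective
  have hr : θ.range = stabilizer (Perm X) ω₀ := by
    ext g
    rw [mem_stabilizer_iff]
    constructor
    · rintro ⟨q, rfl⟩
      exact Perm.ofSubtype_apply_of_not_mem q (by simp)
    · intro hg
      have hg' : g ω₀ = ω₀ := hg
      have hp : ∀ y, g y ≠ ω₀ ↔ y ≠ ω₀ := by
        intro y
        constructor
        · intro hy h
          apply hy
          rw [h, hg']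
        · intro hy h
          apply hy
          apply g.injective
          rw [h, hg']
      refine ⟨g.subtypePerm (p := fun y => y ≠ ω₀) hp, ?_⟩
      apply Perm.ofSubtype_subtypePerm
      intro y hy h
      rw [h] at hy
      exact hy hg'
  have e1 : Perm {y : X // y ≠ ω₀} ≃* θ.range := MonoidHom.ofInjective hθ
  have e2 : θ.range ≃* stabilizer (Perm X) ω₀ := MulEquiv.subgroupCongr hr
  have hc : Fintype.card {y : X // y ≠ ω₀} = m := by
    rw [Fintype.card_subtype_compl, Fintype.card_subtype_eq]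
    omega
  have e3 : {y : X // y ≠ ω₀} ≃ Fin m := Fintype.equivFinOfCardEq hc
  exact ⟨(e2.symm.trans e1.symm).trans e3.permCongrHom⟩

/-- a subgroup of index `n+1` in `Sym(n+1)` is isomorphic to `Sym(n)` -/
theorem iso_of_index (n : ℕ) (hn : Fintype.card Ω = n + 1) (h5 : 5 ≤ n + 1)
    (H : Subgroup (Perm Ω)) (hH : H.index = n + 1) : Nonempty (H ≃* Perm (Fin n)) := by
  obtain ⟨ψ, hψ⟩ := exists_cosetIso (n + 1) hn (by omega) h5 H hH
  obtain ⟨e⟩ := stab_equiv_perm (⟨0, by omega⟩ : Fin (n + 1)) n (by simp)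
  have hmap : H.map ψ.toMonoidHom =
      stabilizer (Perm (Fin (n + 1))) (⟨0, by omega⟩ : Fin (n + 1)) := by
    ext q
    rw [Subgroup.mem_map, mem_stabilizer_iff]
    constructor
    · rintro ⟨p, hp, rfl⟩
      exact (hψ p).1 hp
    · intro hq
      exact ⟨ψ.symm q, (hψ _).2 (by rw [MulEquiv.apply_symm_apply]; exact hq),
        MulEquiv.apply_symm_apply _ _⟩
  exact ⟨((ψ.subgroupMap H).trans (MulEquiv.subgroupCongr hmap)).trans e⟩

theorem two_classes (h6 : Fintype.card Ω = 6) :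
    ∃ H₁ H₂ : Subgroup (Perm Ω), H₁.index = 6 ∧ H₂.index = 6 ∧
      (¬ ∃ g : Perm Ω, Subgroup.map (MulAut.conj g).toMonoidHom H₁ = H₂) ∧
      ∀ H : Subgroup (Perm Ω), H.index = 6 →
        ∃ g : Perm Ω, Subgroup.map (MulAut.conj g).toMonoidHom H₁ = H ∨
          Subgroup.map (MulAut.conj g).toMonoidHom H₂ = H := by
  obtain ⟨H₀, hH₀, hex⟩ := exists_exotic h6
  obtain ⟨x₀⟩ : Nonempty Ω := Fintype.card_pos_iff.1 (by omega)
  refine ⟨stabilizer (Perm Ω) x₀, H₀, ?_, hH₀, ?_, ?_⟩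
  · rw [MulAction.index_stabilizer_of_transitive, Nat.card_eq_fintype_card, h6]
  · rintro ⟨g, hg⟩
    rw [← MulAction.stabilizer_smul_eq_stabilizer_map_conj] at hg
    exact hex _ hg.symm
  · intro H hH
    by_cases hst : ∃ x : Ω, H = stabilizer (Perm Ω) x
    · obtain ⟨x, rfl⟩ := hst
      obtain ⟨g, hg⟩ := MulAction.exists_smul_eq (Perm Ω) x₀ x
      exact ⟨g, Or.inl (by rw [← MulAction.stabilizer_smul_eq_stabilizer_map_conj, hg])⟩
    · push Not at hst
      obtain ⟨g, hg⟩ := exotic_conj h6 H₀ H hH₀ hH hex hst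
      exact ⟨g, Or.inr hg⟩

theorem mem_map_conj {G : Type*} [Group G] (g : G) (H : Subgroup G) (p : G) :
    p ∈ Subgroup.map (MulAut.conj g).toMonoidHom H ↔ g⁻¹ * p * g ∈ H := by
  rw [Subgroup.mem_map]
  constructor
  · rintro ⟨q, hq, rfl⟩
    have : g⁻¹ * (g * q * g⁻¹) * g = q := by group
    show g⁻¹ * (g * q * g⁻¹) * g ∈ H
    rw [this]
    exact hq
  · intro h
    exact ⟨g⁻¹ * p * g, h, by show g * (g⁻¹ * p * g) * g⁻¹ = p; group⟩

theorem exists_ne_ne (h3 : 3 ≤ Fintype.card Ω) (x y : Ω) : ∃ z : Ω, z ≠ x ∧ z ≠ y := by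
  by_contra hcon
  push Not at hcon
  have hsub : (Finset.univ : Finset Ω) ⊆ {x, y} := fun z _ => by
    by_cases c1 : z = x
    · simp [c1]
    · simp [hcon z c1]
  have h3' := Finset.card_le_card hsub
  have h4 : ({x, y} : Finset Ω).card ≤ 2 := Finset.card_le_two
  rw [Finset.card_univ] at h3'
  omega

theorem stab_injective (h3 : 3 ≤ Fintype.card Ω) {a a' : Ω}
    (h : stabilizer (Perm Ω) a = stabilizer (Perm Ω) a') : a = a' := by
  by_contra hne
  obtain ⟨c, hca, hca'⟩ := exists_ne_ne h3 a a'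
  have h1 : swap a' c ∈ stabilizer (Perm Ω) a := by
    rw [mem_stabilizer_iff]
    exact swap_apply_of_ne_of_ne hne (Ne.symm hca)
  rw [h, mem_stabilizer_iff] at h1
  have h2 : swap a' c a' = c := swap_apply_left _ _
  exact hca' (h2.symm.trans h1)

theorem mem_of_conj_eq (h6 : Fintype.card Ω = 6) (H : Subgroup (Perm Ω)) (hH : H.index = 6)
    (c : Perm Ω) (hc : Subgroup.map (MulAut.conj c).toMonoidHom H = H) : c ∈ H := by
  obtain ⟨ψ, hψ⟩ := exists_cosetIso 6 h6 (by norm_num) (by norm_num) H hH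
  rw [hψ]
  by_contra hne
  obtain ⟨d', hd'1, hd'2⟩ := exists_ne_ne (Ω := Fin 6) (by simp) (⟨0, by norm_num⟩ : Fin 6)
    (ψ c ⟨0, by norm_num⟩)
  have hq0 : swap (ψ c ⟨0, by norm_num⟩) d' (⟨0, by norm_num⟩ : Fin 6) = ⟨0, by norm_num⟩ :=
    swap_apply_of_ne_of_ne (Ne.symm hne) (Ne.symm hd'1)
  have hp : ψ.symm (swap (ψ c ⟨0, by norm_num⟩) d') ∈ H := by
    rw [hψ, MulEquiv.apply_symm_apply]
    exact hq0
  have hmem : c⁻¹ * ψ.symm (swap (ψ c ⟨0, by norm_num⟩) d') * c ∈ H := by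
    rw [← mem_map_conj, hc]
    exact hp
  rw [hψ, map_mul, map_mul, map_inv, MulEquiv.apply_symm_apply] at hmem
  have h1 := congrArg (ψ c) hmem
  simp only [Perm.mul_apply, swap_apply_left] at h1
  have h2 : (ψ c) ((ψ c)⁻¹ d') = d' := by simp
  rw [h2] at h1
  exact hd'2 h1

theorem card_index_six (h6 : Fintype.card Ω = 6) :
    Nat.card {H : Subgroup (Perm Ω) // H.index = 6} = 12 := by
  classical
  obtain ⟨H₀, hH₀, hex⟩ := exists_exotic h6
  have hidx : ∀ a : Ω, (stabilizer (Perm Ω) a).index = 6 := fun a => by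
    rw [MulAction.index_stabilizer_of_transitive, Nat.card_eq_fintype_card, h6]
  have hidx' : ∀ ω : Perm Ω ⧸ H₀, (stabilizer (Perm Ω) ω).index = 6 := fun ω => by
    rw [MulAction.index_stabilizer_of_transitive]
    exact hH₀
  have hconj : ∀ g : Perm Ω, stabilizer (Perm Ω) ((g : Perm Ω ⧸ H₀)) =
      Subgroup.map (MulAut.conj g).toMonoidHom H₀ := by
    intro g
    have h1 : (g : Perm Ω ⧸ H₀) = g • ((1 : Perm Ω) : Perm Ω ⧸ H₀) := by
      rw [MulAction.Quotient.smul_coe, smul_eq_mul, mul_one]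
    rw [h1, MulAction.stabilizer_smul_eq_stabilizer_map_conj, MulAction.stabilizer_quotient]
  let F : Ω ⊕ (Perm Ω ⧸ H₀) → {H : Subgroup (Perm Ω) // H.index = 6} := fun s =>
    match s with
    | Sum.inl a => ⟨stabilizer (Perm Ω) a, hidx a⟩
    | Sum.inr ω => ⟨stabilizer (Perm Ω) ω, hidx' ω⟩
  have hmix : ∀ (a : Ω) (ω : Perm Ω ⧸ H₀), stabilizer (Perm Ω) a ≠ stabilizer (Perm Ω) ω := by
    intro a ω h'
    obtain ⟨g, rfl⟩ := QuotientGroup.mk_surjective ω
    rw [hconj] at h'
    apply hex (g⁻¹ • a)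
    ext p
    rw [mem_stabilizer_iff]
    have h2 : p ∈ H₀ ↔ g * p * g⁻¹ ∈ Subgroup.map (MulAut.conj g).toMonoidHom H₀ := by
      rw [mem_map_conj]
      have : g⁻¹ * (g * p * g⁻¹) * g = p := by group
      rw [this]
    rw [h2, ← h', mem_stabilizer_iff]
    show (g * p * g⁻¹) a = a ↔ p (g⁻¹ a) = g⁻¹ a
    rw [Perm.mul_apply, Perm.mul_apply]
    constructor
    · intro h
      have := congrArg (fun z => g⁻¹ z) h
      simpa using this
    · intro h
      rw [h]
      simp
  have hF : Function.Bijective F := by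
    constructor
    · rintro (a | ω) (a' | ω') h
      · have h' : stabilizer (Perm Ω) a = stabilizer (Perm Ω) a' := congrArg Subtype.val h
        rw [stab_injective (by omega) h']
      · exact absurd (congrArg Subtype.val h) (hmix a ω')
      · exact absurd (congrArg Subtype.val h).symm (hmix a' ω)
      · have h' : stabilizer (Perm Ω) ω = stabilizer (Perm Ω) ω' := congrArg Subtype.val h
        obtain ⟨g, rfl⟩ := QuotientGroup.mk_surjective ω
        obtain ⟨g', rfl⟩ := QuotientGroup.mk_surjective ω'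
        rw [hconj, hconj] at h'
        have hc : Subgroup.map (MulAut.conj (g⁻¹ * g')).toMonoidHom H₀ = H₀ := by
          ext p
          rw [mem_map_conj]
          have h3 : (g⁻¹ * g')⁻¹ * p * (g⁻¹ * g') ∈ H₀ ↔
              g * p * g⁻¹ ∈ Subgroup.map (MulAut.conj g').toMonoidHom H₀ := by
            rw [mem_map_conj]
            have : g'⁻¹ * (g * p * g⁻¹) * g' = (g⁻¹ * g')⁻¹ * p * (g⁻¹ * g') := by group
            rw [this]
          rw [h3, ← h', mem_map_conj]
          have : g⁻¹ * (g * p * g⁻¹) * g = p := by group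
          rw [this]
        have hmem := mem_of_conj_eq h6 H₀ hH₀ _ hc
        congr 1
        exact QuotientGroup.eq.2 hmem
    · rintro ⟨H, hH⟩
      by_cases hst : ∃ x : Ω, H = stabilizer (Perm Ω) x
      · obtain ⟨x, rfl⟩ := hst
        exact ⟨Sum.inl x, rfl⟩
      · push Not at hst
        obtain ⟨g, hg⟩ := exotic_conj h6 H₀ H hH₀ hH hex hst
        refine ⟨Sum.inr (g : Perm Ω ⧸ H₀), ?_⟩
        apply Subtype.ext
        show stabilizer (Perm Ω) (g : Perm Ω ⧸ H₀) = H
        rw [hconj, hg]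
  rw [← Nat.card_congr (Equiv.ofBijective F hF), Nat.card_sum, Nat.card_eq_fintype_card, h6]
  have : Nat.card (Perm Ω ⧸ H₀) = 6 := hH₀
  rw [this]

end Cfsg.Agent.Lib.Helper9.SymSix
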