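import Mathlib
import Cfsg.Agent.Lib.Helper9.Coatom

set_option autoImplicit false
set_option linter.unusedSectionVars false

namespace Cfsg.Agent.Lib.Helper9.Wreath

open Equiv MulAction
open scoped Pointwise

variable {Ω : Type*} [Fintype Ω] [DecidableEq Ω] {a b : ℕ}

/-- the stabilizer of the partition into fibres of `f` -/
def W (f : Ω → Fin b) : Subgroup (Perm Ω) where
  carrier := {g | ∀ x y : Ω, f x = f y ↔ f (g x) = f (g y)}
  mul_mem' := by
    intro g h hg hh x y
    rw [hh x y, hg (h x) (h y)]; rfl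
  one_mem' := fun x y => Iff.rfl
  inv_mem' := by
    intro g hg x y
    rw [hg (g⁻¹ x) (g⁻¹ y)]; simp

theorem closure_eq (f : Ω → Fin b) :
    Subgroup.closure {g : Perm Ω | ∀ x y : Ω, f x = f y ↔ f (g x) = f (g y)} = W f :=
  Subgroup.closure_eq (W f)

theorem mem_W (f : Ω → Fin b) (g : Perm Ω) :
    g ∈ W f ↔ ∀ x y, f x = f y ↔ f (g x) = f (g y) := Iff.rfl

theorem swap_mem_W (f : Ω → Fin b) {x y : Ω} (hxy : f x = f y) : swap x y ∈ W f := by
  rw [mem_W]
  intro u v
  have key : ∀ u, f (swap x y u) = f u := by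
    intro u
    by_cases h1 : u = x
    · subst h1; rw [swap_apply_left]; exact hxy.symm
    · by_cases h2 : u = y
      · subst h2; rw [swap_apply_right]; exact hxy
      · rw [swap_apply_of_ne_of_ne h1 h2]
  rw [key, key]

/-- membership via a permutation of the labels -/
theorem mem_W_of_perm (f : Ω → Fin b) (g : Perm Ω) (σ : Perm (Fin b))
    (h : ∀ x, f (g x) = σ (f x)) : g ∈ W f := by
  rw [mem_W]
  intro x y
  rw [h, h]
  exact σ.injective.eq_iff.symm

/-- the lift of a permutation of labels, in coordinates -/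
def lift (e : Ω ≃ Fin b × Fin a) (σ : Perm (Fin b)) : Perm Ω :=
  (e.trans (Equiv.prodCongr σ (Equiv.refl _))).trans e.symm

theorem e_lift (e : Ω ≃ Fin b × Fin a) (σ : Perm (Fin b)) (x : Ω) :
    e (lift e σ x) = (σ (e x).1, (e x).2) := by
  simp [lift, Prod.map]

section coords

variable (f : Ω → Fin b) (e : Ω ≃ Fin b × Fin a) (he : ∀ x, (e x).1 = f x)
include he

theorem f_lift (σ : Perm (Fin b)) (x : Ω) : f (lift e σ x) = σ (f x) := by
  rw [← he, ← he, e_lift]

theorem lift_mem_W (σ : Perm (Fin b)) : lift e σ ∈ W f :=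
  mem_W_of_perm f _ σ (f_lift f e he σ)

theorem lift_fix (σ : Perm (Fin b)) (x : Ω) (h : σ (f x) = f x) : lift e σ x = x := by
  apply e.injective
  rw [e_lift, he, h, ← he]

theorem card_eq : Fintype.card Ω = a * b := by
  rw [Fintype.card_congr e, Fintype.card_prod, Fintype.card_fin, Fintype.card_fin, mul_comm]

theorem exists_other (ha : 2 ≤ a) (x : Ω) : ∃ x', x' ≠ x ∧ f x' = f x := by
  obtain ⟨j, hj⟩ : ∃ j : Fin a, j ≠ (e x).2 := by
    by_cases h0 : (e x).2 = ⟨0, by omega⟩
    · exact ⟨⟨1, by omega⟩, by rw [h0]; simp [Fin.ext_iff]⟩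
    · exact ⟨⟨0, by omega⟩, fun h => h0 h.symm⟩
  refine ⟨e.symm ((e x).1, j), ?_, ?_⟩
  · intro h
    have := congrArg e h
    rw [Equiv.apply_symm_apply] at this
    exact hj (congrArg Prod.snd this)
  · rw [← he, Equiv.apply_symm_apply, he]

theorem exists_other_fibre (ha : 2 ≤ a) (hb : 2 ≤ b) (x : Ω) :
    ∃ u v, u ≠ v ∧ f u = f v ∧ f u ≠ f x := by
  obtain ⟨i, hi⟩ : ∃ i : Fin b, i ≠ f x := by
    by_cases h0 : f x = ⟨0, by omega⟩
    · exact ⟨⟨1, by omega⟩, by rw [h0]; simp [Fin.ext_iff]⟩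
    · exact ⟨⟨0, by omega⟩, fun h => h0 h.symm⟩
  have hu : f (e.symm (i, ⟨0, by omega⟩)) = i := by rw [← he, Equiv.apply_symm_apply]
  obtain ⟨v, hv1, hv2⟩ := exists_other f e he ha (e.symm (i, ⟨0, by omega⟩))
  exact ⟨_, v, hv1.symm, hv2.symm, by rw [hu]; exact hi⟩

end coords

/-- parity fix -/
theorem parity_fix (f : Ω → Fin b) {k : Perm Ω} (hk : k ∈ W f) {u v : Ω} (huv : u ≠ v)
    (hf : f u = f v) :
    k ∈ W f ⊓ alternatingGroup Ω ∨ k * swap u v ∈ W f ⊓ alternatingGroup Ω := by
  rcases Int.units_eq_one_or (Perm.sign k) with h | h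
  · left
    exact ⟨hk, Perm.mem_alternatingGroup.2 h⟩
  · right
    refine ⟨(W f).mul_mem hk (swap_mem_W f hf), ?_⟩
    have : k * swap u v ∈ alternatingGroup Ω := by
      rw [Perm.mem_alternatingGroup, Perm.sign_mul, h, Perm.sign_swap huv]
      simp
    exact this

section coords2

variable (f : Ω → Fin b) (e : Ω ≃ Fin b × Fin a) (he : ∀ x, (e x).1 = f x)
include he

/-- `W ∩ A` is transitive -/
theorem H_trans (ha : 2 ≤ a) (hb : 2 ≤ b) (x y : Ω) :
    ∃ h ∈ W f ⊓ alternatingGroup Ω, h x = y := by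
  set σ : Perm (Fin b) := swap (f x) (f y) with hσ
  set k : Perm Ω := swap (lift e σ x) y * lift e σ with hk
  have hkW : k ∈ W f := by
    refine (W f).mul_mem (swap_mem_W f ?_) (lift_mem_W f e he σ)
    rw [f_lift f e he, hσ, swap_apply_left]
  have hkx : k x = y := by
    rw [hk, Perm.mul_apply, swap_apply_left]
  obtain ⟨u, v, huv, hfuv, hfu⟩ := exists_other_fibre f e he ha hb x
  rcases parity_fix f hkW huv hfuv with h | h
  · exact ⟨k, h, hkx⟩
  · refine ⟨_, h, ?_⟩
    rw [Perm.mul_apply, swap_apply_of_ne_of_ne, hkx]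
    · rintro rfl; exact hfu rfl
    · rintro rfl; exact hfu hfuv

/-- a within-fibre swap avoiding two given points -/
theorem exists_avoid (hn : b + 2 < a * b) (x w : Ω) :
    ∃ u v, u ≠ v ∧ f u = f v ∧ u ≠ x ∧ u ≠ w ∧ v ≠ x ∧ v ≠ w := by
  have hc := card_eq f e he
  have h1 : (Finset.univ : Finset (Fin b)).card < ((Finset.univ.erase x).erase w : Finset Ω).card := by
    have h2 : (Finset.univ.erase x : Finset Ω).card = a * b - 1 := by
      rw [Finset.card_erase_of_mem (Finset.mem_univ _), Finset.card_univ, hc]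
    have h3 := Finset.pred_card_le_card_erase (s := (Finset.univ.erase x : Finset Ω)) (a := w)
    rw [Finset.card_univ, Fintype.card_fin]
    omega
  obtain ⟨u, hu, v, hv, huv, hfuv⟩ :=
    Finset.exists_ne_map_eq_of_card_lt_of_maps_to h1 (f := f) (fun _ _ => Finset.mem_univ _)
  simp only [Finset.mem_erase, Finset.mem_univ, and_true] at hu hv
  exact ⟨u, v, huv, hfuv, hu.2, hu.1, hv.2, hv.1⟩

omit he in
/-- parity fix keeping two values -/
theorem exists_even_agree (hav : ∀ x w : Ω, ∃ u v, u ≠ v ∧ f u = f v ∧ u ≠ x ∧ u ≠ w ∧ v ≠ x ∧ v ≠ w)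
    {k : Perm Ω} (hk : k ∈ W f) (x w : Ω) :
    ∃ h ∈ W f ⊓ alternatingGroup Ω, h x = k x ∧ h w = k w := by
  obtain ⟨u, v, huv, hfuv, hux, huw, hvx, hvw⟩ := hav x w
  rcases parity_fix f hk huv hfuv with h | h
  · exact ⟨k, h, rfl, rfl⟩
  · refine ⟨_, h, ?_, ?_⟩
    · rw [Perm.mul_apply, swap_apply_of_ne_of_ne hux.symm hvx.symm]
    · rw [Perm.mul_apply, swap_apply_of_ne_of_ne huw.symm hvw.symm]

/-- the stabilizer of `x` in `W` is transitive outside the fibre of `x` -/
theorem W_stab_trans (x w w' : Ω) (hw : f w ≠ f x) (hw' : f w' ≠ f x) :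
    ∃ k ∈ W f, k x = x ∧ k w = w' := by
  set σ : Perm (Fin b) := swap (f w) (f w') with hσ
  set k : Perm Ω := swap (lift e σ w) w' * lift e σ with hk
  have h1 : f (lift e σ w) = f w' := by rw [f_lift f e he, hσ, swap_apply_left]
  have hkW : k ∈ W f := (W f).mul_mem (swap_mem_W f h1) (lift_mem_W f e he σ)
  refine ⟨k, hkW, ?_, ?_⟩
  · have h2 : lift e σ x = x := by
      apply lift_fix f e he
      rw [hσ, swap_apply_of_ne_of_ne (Ne.symm hw) (Ne.symm hw')]
    rw [hk, Perm.mul_apply, h2, swap_apply_of_ne_of_ne]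
    · rintro rfl; exact hw' h1.symm
    · rintro rfl; exact hw' rfl
  · rw [hk, Perm.mul_apply, swap_apply_left]

end coords2

section blocks

variable (f : Ω → Fin b) (e : Ω ≃ Fin b × Fin a) (he : ∀ x, (e x).1 = f x)
include he

/-- block key fact -/
theorem block_key {L : Subgroup (Perm Ω)} {B : Set Ω} (hB : IsBlock L B) {h : Perm Ω}
    (hh : h ∈ L) {x : Ω} (hx : x ∈ B) (hhx : h x ∈ B) {y : Ω} (hy : y ∈ B) : h y ∈ B := by
  have h1 : (⟨h, hh⟩ : L) • B = B := hB.smul_eq_of_mem (g := ⟨h, hh⟩) hx hhx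
  have h2 : (⟨h, hh⟩ : L) • y ∈ (⟨h, hh⟩ : L) • B := Set.smul_mem_smul_set hy
  rw [h1] at h2
  exact h2

theorem block_univ (hav : ∀ x w : Ω, ∃ u v, u ≠ v ∧ f u = f v ∧ u ≠ x ∧ u ≠ w ∧ v ≠ x ∧ v ≠ w)
    {L : Subgroup (Perm Ω)} (hHL : W f ⊓ alternatingGroup Ω ≤ L) {B : Set Ω} (hB : IsBlock L B)
    {x y : Ω} (hx : x ∈ B) (hy : y ∈ B) (hxy : f y ≠ f x) : B = Set.univ := by
  have step : ∀ x y : Ω, x ∈ B → y ∈ B → f y ≠ f x → ∀ w, f w ≠ f x → w ∈ B := by
    intro x y hx hy hxy w hw
    obtain ⟨k, hkW, hkx, hky⟩ := W_stab_trans f e he x y w hxy hw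
    obtain ⟨h, hhH, hhx, hhy⟩ := exists_even_agree f hav hkW x y
    have := block_key f e he hB (hHL hhH) hx (by rw [hhx, hkx]; exact hx) hy
    rwa [hhy, hky] at this
  rw [Set.eq_univ_iff_forall]
  intro w
  by_cases hw : f w = f x
  · exact step y x hy hx (Ne.symm hxy) w (by rw [hw]; exact Ne.symm hxy)
  · exact step x y hx hy hxy w hw

theorem block_fibre (hav : ∀ x w : Ω, ∃ u v, u ≠ v ∧ f u = f v ∧ u ≠ x ∧ u ≠ w ∧ v ≠ x ∧ v ≠ w)
    {L : Subgroup (Perm Ω)} (hHL : W f ⊓ alternatingGroup Ω ≤ L) {B : Set Ω} (hB : IsBlock L B)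
    {x y : Ω} (hx : x ∈ B) (hy : y ∈ B) (hxy : y ≠ x) (hsub : ∀ z ∈ B, f z = f x) :
    ∀ z, f z = f x → z ∈ B := by
  intro z hz
  by_cases hzx : z = x
  · rw [hzx]; exact hx
  · have hkW : swap y z ∈ W f := swap_mem_W f (by rw [hsub y hy, hz])
    obtain ⟨h, hhH, hhx, hhy⟩ := exists_even_agree f hav hkW x y
    rw [swap_apply_of_ne_of_ne (Ne.symm hxy) (Ne.symm hzx)] at hhx
    rw [swap_apply_left] at hhy
    have := block_key f e he hB (hHL hhH) hx (by rw [hhx]; exact hx) hy
    rwa [hhy] at this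

theorem isPretransitive_of_le (ha : 2 ≤ a) (hb : 2 ≤ b) {L : Subgroup (Perm Ω)}
    (hHL : W f ⊓ alternatingGroup Ω ≤ L) : IsPretransitive L Ω := by
  constructor
  intro x y
  obtain ⟨h, hh, hxy⟩ := H_trans f e he ha hb x y
  exact ⟨⟨h, hHL hh⟩, hxy⟩

theorem isPreprimitive_of_le (ha : 2 ≤ a) (hb : 2 ≤ b)
    (hav : ∀ x w : Ω, ∃ u v, u ≠ v ∧ f u = f v ∧ u ≠ x ∧ u ≠ w ∧ v ≠ x ∧ v ≠ w)
    {L : Subgroup (Perm Ω)} (hHL : W f ⊓ alternatingGroup Ω ≤ L) (hLW : ¬ L ≤ W f) :
    IsPreprimitive L Ω := by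
  have hpt := isPretransitive_of_le f e he ha hb hHL
  refine { toIsPretransitive := hpt, isTrivialBlock_of_isBlock := ?_ }
  intro B hB
  by_cases hsub : B.Subsingleton
  · exact Or.inl hsub
  right
  rw [Set.not_subsingleton_iff] at hsub
  obtain ⟨x, hx, y, hy, hxy⟩ := hsub
  by_cases hex : ∃ z ∈ B, f z ≠ f x
  · obtain ⟨z, hz, hzx⟩ := hex
    exact block_univ f e he hav hHL hB hx hz hzx
  exfalso
  push Not at hex
  have hfib := block_fibre f e he hav hHL hB hx hy (Ne.symm hxy) hex
  apply hLW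
  -- every element of L maps fibres into fibres
  have key : ∀ g ∈ L, ∀ u v, f u = f v → f (g u) = f (g v) := by
    intro g hg u v huv
    obtain ⟨h, hhH, hhx⟩ := H_trans f e he ha hb x u
    have hhW : h ∈ W f := hhH.1
    have hv0 : f (h⁻¹ v) = f x := by
      have := (mem_W f h).1 hhW (h⁻¹ v) x
      rw [this, hhx]
      simpa using huv.symm
    have hv0B : h⁻¹ v ∈ B := hfib _ hv0
    have hkL : g * h ∈ L := L.mul_mem hg (hHL hhH)
    have hB' : IsBlock L ((⟨g * h, hkL⟩ : L) • B) := hB.translate _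
    have m1 : g u ∈ (⟨g * h, hkL⟩ : L) • B := by
      have : (⟨g * h, hkL⟩ : L) • x ∈ (⟨g * h, hkL⟩ : L) • B := Set.smul_mem_smul_set hx
      have e1 : (⟨g * h, hkL⟩ : L) • x = g u := by
        show (g * h) x = g u
        rw [Perm.mul_apply, hhx]
      rwa [e1] at this
    have m2 : g v ∈ (⟨g * h, hkL⟩ : L) • B := by
      have : (⟨g * h, hkL⟩ : L) • (h⁻¹ v) ∈ (⟨g * h, hkL⟩ : L) • B := Set.smul_mem_smul_set hv0B
      have e1 : (⟨g * h, hkL⟩ : L) • (h⁻¹ v) = g v := by
        show (g * h) (h⁻¹ v) = g v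
        rw [Perm.mul_apply]; simp
      rwa [e1] at this
    by_contra hne
    have huniv := block_univ f e he hav hHL hB' m1 m2 (fun h => hne h.symm)
    obtain ⟨u', v', -, -, hu'⟩ := exists_other_fibre f e he ha hb x
    have : (⟨g * h, hkL⟩ : L) • u' ∈ (⟨g * h, hkL⟩ : L) • B := by rw [huniv]; trivial
    rw [Set.smul_mem_smul_set_iff] at this
    exact hu' (hex u' this)
  intro g hg
  rw [mem_W]
  intro u v
  refine ⟨key g hg u v, fun h => ?_⟩
  have := key g⁻¹ (L.inv_mem hg) (g u) (g v) h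
  simpa using this

end blocks

theorem exists_fin_notMem (l : List (Fin b)) (h : l.length < b) : ∃ i : Fin b, i ∉ l := by
  by_contra hcon
  push Not at hcon
  have h1 : (Finset.univ : Finset (Fin b)) ⊆ l.toFinset := fun i _ => List.mem_toFinset.2 (hcon i)
  have h2 := Finset.card_le_card h1
  rw [Finset.card_univ, Fintype.card_fin] at h2
  have h3 := l.toFinset_card_le
  omega

theorem swap_comm4 {x y z t : Ω} (h1 : x ≠ y) (h2 : x ≠ z) (h3 : x ≠ t) (h4 : y ≠ z) (h5 : y ≠ t)
    (h6 : z ≠ t) : Commute (swap x y) (swap z t) :=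
  (Perm.disjoint_swap_swap (by simp [h1, h2, h3, h4, h5, h6])).commute

section three

variable (f : Ω → Fin b) (e : Ω ≃ Fin b × Fin a) (he : ∀ x, (e x).1 = f x)
include he

theorem exists_three_cycle_H (ha : 3 ≤ a) (hb : 1 ≤ b) :
    ∃ c ∈ W f ⊓ alternatingGroup Ω, c.IsThreeCycle := by
  let x : Ω := e.symm (⟨0, by omega⟩, ⟨0, by omega⟩)
  let y : Ω := e.symm (⟨0, by omega⟩, ⟨1, by omega⟩)
  let z : Ω := e.symm (⟨0, by omega⟩, ⟨2, by omega⟩)
  have hfx : f x = ⟨0, by omega⟩ := by rw [← he]; simp [x]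
  have hfy : f y = ⟨0, by omega⟩ := by rw [← he]; simp [y]
  have hfz : f z = ⟨0, by omega⟩ := by rw [← he]; simp [z]
  have hxy : x ≠ y := by
    intro h
    have := e.symm.injective h
    simp [Fin.ext_iff] at this
  have hxz : x ≠ z := by
    intro h
    have := e.symm.injective h
    simp [Fin.ext_iff] at this
  have hyz : y ≠ z := by
    intro h
    have := e.symm.injective h
    simp [Fin.ext_iff] at this
  have h3 := Perm.isThreeCycle_swap_mul_swap_same hxy hxz hyz
  exact ⟨_, ⟨(W f).mul_mem (swap_mem_W f (hfx.trans hfy.symm)) (swap_mem_W f (hfx.trans hfz.symm)),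
    h3.mem_alternatingGroup⟩, h3⟩

theorem surj_f (ha : 1 ≤ a) (i : Fin b) : ∃ z, f z = i :=
  ⟨e.symm (i, ⟨0, by omega⟩), by rw [← he]; simp⟩

theorem exists_oth (ha : a = 2) : ∃ oth : Ω → Ω, (∀ x, oth x ≠ x) ∧ (∀ x, f (oth x) = f x) ∧
    (∀ x y, f y = f x → y = x ∨ y = oth x) := by
  subst ha
  refine ⟨fun x => e.symm ((e x).1, (e x).2 + 1), ?_, ?_, ?_⟩
  · intro x h
    have h1 := congrArg e h
    rw [Equiv.apply_symm_apply] at h1
    have h2 := congrArg Prod.snd h1
    simp only at h2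
    have : ∀ j : Fin 2, j + 1 ≠ j := by decide
    exact this _ h2
  · intro x
    rw [← he, Equiv.apply_symm_apply, he]
  · intro x y hxy
    rw [← he, ← he] at hxy
    have : ∀ j k : Fin 2, k = j ∨ k = j + 1 := by decide
    rcases this (e x).2 (e y).2 with h | h
    · left
      apply e.injective
      exact Prod.ext hxy h
    · right
      apply e.injective
      rw [Equiv.apply_symm_apply]
      exact Prod.ext hxy h

end three

section two

variable (f : Ω → Fin b) (oth : Ω → Ω) (ho1 : ∀ x, oth x ≠ x) (ho2 : ∀ x, f (oth x) = f x)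
  (ho3 : ∀ x y, f y = f x → y = x ∨ y = oth x)
include ho1 ho2

theorem pair_mem_H (x u : Ω) : swap x (oth x) * swap u (oth u) ∈ W f ⊓ alternatingGroup Ω := by
  refine ⟨(W f).mul_mem (swap_mem_W f (ho2 x).symm) (swap_mem_W f (ho2 u).symm), ?_⟩
  have : swap x (oth x) * swap u (oth u) ∈ alternatingGroup Ω := by
    rw [Perm.mem_alternatingGroup, Perm.sign_mul, Perm.sign_swap (ho1 x).symm,
      Perm.sign_swap (ho1 u).symm]
    simp
  exact this

theorem conj_pair_mem {L : Subgroup (Perm Ω)} (hHL : W f ⊓ alternatingGroup Ω ≤ L) {g : Perm Ω}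
    (hg : g ∈ L) (x u : Ω) : swap (g x) (g (oth x)) * swap (g u) (g (oth u)) ∈ L := by
  have h1 := L.mul_mem (L.mul_mem hg (hHL (pair_mem_H f oth ho1 ho2 x u))) (L.inv_mem hg)
  have : g * (swap x (oth x) * swap u (oth u)) * g⁻¹ =
      swap (g x) (g (oth x)) * swap (g u) (g (oth u)) := by
    rw [Equiv.swap_apply_apply, Equiv.swap_apply_apply]; group
  rwa [this] at h1

include ho3

theorem fibre_swap_mem_H {p q : Ω} (hpq : f p ≠ f q) :
    swap p q * swap (oth p) (oth q) ∈ W f ⊓ alternatingGroup Ω := by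
  have hne : p ≠ q := fun h => hpq (by rw [h])
  have hne' : oth p ≠ oth q := fun h => hpq (by rw [← ho2 p, h, ho2 q])
  have h1 : p ≠ oth p := (ho1 p).symm
  have h2 : p ≠ oth q := fun h => hpq (by rw [← ho2 q, ← h])
  have h3 : q ≠ oth p := fun h => hpq (by rw [← ho2 p, ← h])
  have h4 : q ≠ oth q := (ho1 q).symm
  refine ⟨?_, ?_⟩
  · apply mem_W_of_perm f _ (swap (f p) (f q))
    intro x
    rw [Perm.mul_apply]
    by_cases c1 : x = p
    · rw [c1, swap_apply_of_ne_of_ne h1 h2, swap_apply_left, swap_apply_left]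
    by_cases c2 : x = q
    · rw [c2, swap_apply_of_ne_of_ne h3 h4, swap_apply_right, swap_apply_right]
    by_cases c3 : x = oth p
    · rw [c3, swap_apply_left, swap_apply_of_ne_of_ne (Ne.symm h2) (Ne.symm h4), ho2, ho2,
        swap_apply_left]
    by_cases c4 : x = oth q
    · rw [c4, swap_apply_right, swap_apply_of_ne_of_ne (Ne.symm h1) (Ne.symm h3), ho2, ho2,
        swap_apply_right]
    have c5 : f x ≠ f p := by
      intro h
      rcases ho3 p x h with h | h
      · exact c1 h
      · exact c3 h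
    have c6 : f x ≠ f q := by
      intro h
      rcases ho3 q x h with h | h
      · exact c2 h
      · exact c4 h
    rw [swap_apply_of_ne_of_ne c3 c4, swap_apply_of_ne_of_ne c1 c2, swap_apply_of_ne_of_ne c5 c6]
  · have : swap p q * swap (oth p) (oth q) ∈ alternatingGroup Ω := by
      rw [Perm.mem_alternatingGroup, Perm.sign_mul, Perm.sign_swap hne, Perm.sign_swap hne']
      simp
    exact this

theorem exists_three_cycle_two (hsurj : ∀ i : Fin b, ∃ z, f z = i) (hb3 : 3 ≤ b) (hb4 : b ≠ 4)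
    {L : Subgroup (Perm Ω)} (hHL : W f ⊓ alternatingGroup Ω ≤ L) {g : Perm Ω} (hg : g ∈ L)
    {i1 i2 : Ω} (hi : f i1 = f i2) (hgi : f (g i1) ≠ f (g i2)) :
    ∃ c ∈ L, c.IsThreeCycle := by
  have hi12 : i1 ≠ i2 := fun h => hgi (by rw [h])
  have hi2 : i2 = oth i1 := by
    rcases ho3 i1 i2 hi.symm with h | h
    · exact absurd h.symm hi12
    · exact h
  subst hi2
  have hoo : ∀ x, oth (oth x) = x := by
    intro x
    rcases ho3 (oth x) x (ho2 x).symm with h | h
    · exact absurd h.symm (ho1 x)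
    · exact h.symm
  obtain ⟨p, hp⟩ : ∃ p, p = g i1 := ⟨_, rfl⟩
  obtain ⟨q, hq⟩ : ∃ q, q = g (oth i1) := ⟨_, rfl⟩
  rw [← hp, ← hq] at hgi
  have hpq : p ≠ q := fun h => hgi (by rw [h])
  obtain ⟨p', hp'⟩ : ∃ p', p' = oth p := ⟨_, rfl⟩
  obtain ⟨q', hq'⟩ : ∃ q', q' = oth q := ⟨_, rfl⟩
  have hfp' : f p' = f p := by rw [hp']; exact ho2 p
  have hfq' : f q' = f q := by rw [hq']; exact ho2 q
  obtain ⟨m, hm⟩ : ∃ m, m = g⁻¹ p' := ⟨_, rfl⟩
  have hgm : g m = p' := by simp [hm]
  obtain ⟨r1, hr1⟩ : ∃ r1, r1 = g (oth m) := ⟨_, rfl⟩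
  have hp'p : p' ≠ p := by rw [hp']; exact ho1 p
  have hp'q : p' ≠ q := fun h => hgi (by rw [← hfp', h])
  have hq'p : q' ≠ p := fun h => hgi (by rw [← hfq', h])
  have hq'q : q' ≠ q := by rw [hq']; exact ho1 q
  have hp'q' : p' ≠ q' := fun h => hgi (by rw [← hfp', h, hfq'])
  have hmi1 : m ≠ i1 := by
    intro h
    apply hp'p
    rw [← hgm, h, hp]
  have hmi2 : m ≠ oth i1 := by
    intro h
    apply hp'q
    rw [← hgm, h, hq]
  have hr1p' : r1 ≠ p' := by
    rw [← hgm, hr1]
    intro h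
    exact ho1 m (g.injective h)
  have hr1p : r1 ≠ p := by
    rw [hr1, hp]
    intro h
    have h1 := g.injective h
    exact hmi2 (by rw [← h1, hoo])
  have hr1q : r1 ≠ q := by
    rw [hr1, hq]
    intro h
    have h1 := congrArg oth (g.injective h)
    rw [hoo, hoo] at h1
    exact hmi1 h1
  have hcp : swap p q * swap p p' = swap p q * swap p p' := rfl
  have h3c : (swap p q * swap p p').IsThreeCycle :=
    Perm.isThreeCycle_swap_mul_swap_same hpq (Ne.symm hp'p) (Ne.symm hp'q)
  by_cases hcase : r1 = q'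
  · -- square case
    obtain ⟨i, hi⟩ := exists_fin_notMem [f p, f q] (by simp; omega)
    simp only [List.mem_cons, List.not_mem_nil, or_false, not_or] at hi
    obtain ⟨r, hr⟩ := hsurj i
    have hrp : f r ≠ f p := by rw [hr]; exact hi.1
    have hrq : f r ≠ f q := by rw [hr]; exact hi.2
    obtain ⟨n, hn⟩ : ∃ n, n = g⁻¹ r := ⟨_, rfl⟩
    have hgn : g n = r := by simp [hn]
    obtain ⟨y', hy'⟩ : ∃ y', y' = g (oth n) := ⟨_, rfl⟩
    have hy'r : y' ≠ r := by
      rw [← hgn, hy']
      intro h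
      exact ho1 n (g.injective h)
    have hy'p : y' ≠ p := by
      rw [hy', hp]
      intro h
      have h1 := g.injective h
      have h2 : n = oth i1 := by rw [← h1, hoo]
      exact hrq (by rw [← hgn, h2, hq])
    have hy'q : y' ≠ q := by
      rw [hy', hq]
      intro h
      have h1 := congrArg oth (g.injective h)
      rw [hoo, hoo] at h1
      exact hrp (by rw [← hgn, h1, hp])
    have hy'p' : y' ≠ p' := by
      rw [hy', ← hgm]
      intro h
      have h1 := g.injective h
      have h2 : n = oth m := by rw [← h1, hoo]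
      exact hrq (by rw [← hgn, h2, ← hr1, hcase, hfq'])
    have hy'q' : y' ≠ q' := by
      rw [hy', ← hcase, hr1]
      intro h
      have h1 := congrArg oth (g.injective h)
      rw [hoo, hoo] at h1
      exact hrp (by rw [← hgn, h1, hgm, hfp'])
    have hs : swap p q * swap r y' ∈ L := by
      have := conj_pair_mem f oth ho1 ho2 hHL hg i1 n
      rwa [hgn, ← hp, ← hq, ← hy'] at this
    have hrp1 : r ≠ p := fun h => hrp (by rw [h])
    have hrq1 : r ≠ q := fun h => hrq (by rw [h])
    have hrp' : r ≠ p' := fun h => hrp (by rw [h, hfp'])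
    by_cases hsub : f y' = f r
    · have hy'o : y' = oth r := by
        rcases ho3 r y' hsub with h | h
        · exact absurd h hy'r
        · exact h
      have ht : swap p p' * swap r y' ∈ L := by
        rw [hy'o, hp']
        exact hHL (pair_mem_H f oth ho1 ho2 p r)
      refine ⟨(swap p q * swap r y') * (swap p p' * swap r y'), L.mul_mem hs ht, ?_⟩
      have hcomm : Commute (swap r y') (swap p p') :=
        swap_comm4 (Ne.symm hy'r) hrp1 hrp' hy'p hy'p' (Ne.symm hp'p)
      have : (swap p q * swap r y') * (swap p p' * swap r y') = swap p q * swap p p' := by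
        rw [mul_assoc, ← mul_assoc (swap r y'), hcomm.eq, mul_assoc, swap_mul_self, mul_one]
      rw [this]
      exact h3c
    · have hy'fp : f y' ≠ f p := by
        intro h
        rcases ho3 p y' h with h | h
        · exact hy'p h
        · exact hy'p' (by rw [hp']; exact h)
      have hy'fq : f y' ≠ f q := by
        intro h
        rcases ho3 q y' h with h | h
        · exact hy'q h
        · exact hy'q' (by rw [hq']; exact h)
      have hb5 : 5 ≤ b := by
        by_contra hcon
        have h1 := (f p).2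
        have h2 := (f q).2
        have h3 := (f r).2
        have h4 := (f y').2
        have d1 := Fin.val_ne_of_ne hgi
        have d2 := Fin.val_ne_of_ne hrp
        have d3 := Fin.val_ne_of_ne hrq
        have d4 := Fin.val_ne_of_ne hy'fp
        have d5 := Fin.val_ne_of_ne hy'fq
        have d6 := Fin.val_ne_of_ne hsub
        omega
      obtain ⟨j, hj⟩ := exists_fin_notMem [f p, f q, f r, f y'] (by simp; omega)
      simp only [List.mem_cons, List.not_mem_nil, or_false, not_or] at hj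
      obtain ⟨z, hz⟩ := hsurj j
      obtain ⟨z', hz'⟩ : ∃ z', z' = oth z := ⟨_, rfl⟩
      have hfz' : f z' = f z := by rw [hz']; exact ho2 z
      have hzz' : z ≠ z' := by rw [hz']; exact (ho1 z).symm
      have ht : swap p p' * swap z z' ∈ L := by
        rw [hz', hp']
        exact hHL (pair_mem_H f oth ho1 ho2 p z)
      have hzp : f z ≠ f p := by rw [hz]; exact hj.1
      have hzq : f z ≠ f q := by rw [hz]; exact hj.2.1
      have hzr : f z ≠ f r := by rw [hz]; exact hj.2.2.1
      have hzy : f z ≠ f y' := by rw [hz]; exact hj.2.2.2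
      have n1 : p ≠ z := fun h => hzp (by rw [h])
      have n2 : p ≠ z' := fun h => hzp (by rw [← hfz', h])
      have n3 : q ≠ z := fun h => hzq (by rw [h])
      have n4 : q ≠ z' := fun h => hzq (by rw [← hfz', h])
      have n5 : r ≠ z := fun h => hzr (by rw [h])
      have n6 : r ≠ z' := fun h => hzr (by rw [← hfz', h])
      have n7 : y' ≠ z := fun h => hzy (by rw [h])
      have n8 : y' ≠ z' := fun h => hzy (by rw [← hfz', h])
      have n9 : p' ≠ z := fun h => hzp (by rw [← h, hfp'])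
      have n10 : p' ≠ z' := fun h => hzp (by rw [← hfz', ← h, hfp'])
      have hBC : Commute (swap r y') (swap p p') :=
        swap_comm4 (Ne.symm hy'r) hrp1 hrp' hy'p hy'p' (Ne.symm hp'p)
      have hBD : Commute (swap r y') (swap z z') :=
        swap_comm4 (Ne.symm hy'r) n5 n6 n7 n8 hzz'
      have hAD : Commute (swap p q) (swap z z') := swap_comm4 hpq n1 n2 n3 n4 hzz'
      have hCD : Commute (swap p p') (swap z z') :=
        swap_comm4 (Ne.symm hp'p) n1 n2 n9 n10 hzz'
      have hAB : Commute (swap p q) (swap r y') :=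
        swap_comm4 hpq (Ne.symm hrp1) (Ne.symm hy'p) (Ne.symm hrq1) (Ne.symm hy'q) (Ne.symm hy'r)
      refine ⟨((swap p q * swap r y') * (swap p p' * swap z z')) ^ 2,
        L.pow_mem (L.mul_mem hs ht) 2, ?_⟩
      have e1 : (swap p q * swap r y') * (swap p p' * swap z z') =
          (swap p q * swap p p') * (swap r y' * swap z z') := by
        rw [mul_assoc, ← mul_assoc (swap r y'), hBC.eq, mul_assoc, ← mul_assoc]
      have hc : Commute (swap p q * swap p p') (swap r y' * swap z z') :=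
        (hAB.mul_right hAD).mul_left (hBC.symm.mul_right hCD)
      have hd : (swap r y' * swap z z') ^ 2 = 1 := by
        rw [hBD.mul_pow]
        simp [sq, swap_mul_self]
      rw [e1, hc.mul_pow, hd, mul_one]
      exact h3c.isThreeCycle_sq
  · -- hexagon case
    have hs : swap p q * swap p' r1 ∈ L := by
      have := conj_pair_mem f oth ho1 ho2 hHL hg i1 m
      rwa [hgm, ← hp, ← hq, ← hr1] at this
    have hπ : swap p q * swap p' q' ∈ L := by
      rw [hp', hq']
      exact hHL (fibre_swap_mem_H f oth ho1 ho2 ho3 hgi)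
    refine ⟨(swap p q * swap p' r1) * (swap p q * swap p' q'), L.mul_mem hs hπ, ?_⟩
    have hcomm : Commute (swap p q) (swap p' r1) :=
      swap_comm4 hpq (Ne.symm hp'p) (Ne.symm hr1p) (Ne.symm hp'q) (Ne.symm hr1q) (Ne.symm hr1p')
    have : (swap p q * swap p' r1) * (swap p q * swap p' q') = swap p' r1 * swap p' q' := by
      rw [hcomm.eq, mul_assoc, ← mul_assoc (swap p q), swap_mul_self, one_mul]
    rw [this]
    exact Perm.isThreeCycle_swap_mul_swap_same (Ne.symm hr1p') hp'q' hcase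

end two

theorem main (ha : 2 ≤ a) (hb : 2 ≤ b) (h8 : Fintype.card Ω ≠ 8) (f : Ω → Fin b)
    (e : Ω ≃ Fin b × Fin a) (he : ∀ x, (e x).1 = f x) :
    IsCoatom ((W f ⊓ alternatingGroup Ω).subgroupOf (alternatingGroup Ω)) := by
  rw [isCoatom_subgroupOf_iff inf_le_right]
  have hcard := card_eq f e he
  constructor
  · intro hle
    let x : Ω := e.symm (⟨0, by omega⟩, ⟨0, by omega⟩)
    obtain ⟨y, hyx, hfy⟩ := exists_other f e he ha x
    obtain ⟨u, v, huv, hfuv, hfu⟩ := exists_other_fibre f e he ha hb x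
    have hxu : x ≠ u := fun h => hfu (by rw [h])
    have hyu : y ≠ u := fun h => hfu (by rw [← h, hfy])
    have h3 := Perm.isThreeCycle_swap_mul_swap_same hyx hyu hxu
    have hW := (hle h3.mem_alternatingGroup).1
    have := (mem_W f _).1 hW x y
    rw [Perm.mul_apply, Perm.mul_apply, swap_apply_of_ne_of_ne (Ne.symm hyx) hxu,
      swap_apply_right, swap_apply_left, swap_apply_of_ne_of_ne (Ne.symm hyu) (Ne.symm hxu)] at this
    exact hfu ((this.1 hfy.symm).symm.trans hfy)
  · intro L hHL hLA hLH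
    have hLW : ¬ L ≤ W f := fun h => hLH (le_inf h hLA)
    by_cases hn : b + 2 < a * b
    · have hav := exists_avoid f e he hn
      have hprim := isPreprimitive_of_le f e he ha hb hav hHL hLW
      obtain ⟨c, hcL, hc3⟩ : ∃ c ∈ L, c.IsThreeCycle := by
        by_cases ha3 : 3 ≤ a
        · obtain ⟨c, hc, hc3⟩ := exists_three_cycle_H f e he ha3 (by omega)
          exact ⟨c, hHL hc, hc3⟩
        · have ha2 : a = 2 := by omega
          obtain ⟨oth, ho1, ho2, ho3⟩ := exists_oth f e he ha2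
          have hb3 : 3 ≤ b := by subst ha2; omega
          have hb4 : b ≠ 4 := by subst ha2; omega
          obtain ⟨g, hgL, hgW⟩ := SetLike.not_le_iff_exists.1 hLW
          rw [mem_W] at hgW
          push Not at hgW
          obtain ⟨x, y, hxy⟩ := hgW
          rcases hxy with ⟨h1, h2⟩ | ⟨h1, h2⟩
          · exact exists_three_cycle_two f oth ho1 ho2 ho3 (surj_f f e he (by omega)) hb3 hb4
              hHL hgL h1 h2
          · exact exists_three_cycle_two f oth ho1 ho2 ho3 (surj_f f e he (by omega)) hb3 hb4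
              hHL (L.inv_mem hgL) (i1 := g x) (i2 := g y) h2 (by simpa using h1)
      exact Perm.alternatingGroup_le_of_isPreprimitive_of_isThreeCycle_mem hprim hc3 hcL
    · have ha2 : a = 2 := by
        by_contra h
        have : 3 ≤ a := by omega
        nlinarith
      subst ha2
      have hb2 : b = 2 := by omega
      subst hb2
      have hc4 : Fintype.card Ω = 4 := by rw [hcard]
      have : Nontrivial Ω := Fintype.one_lt_card_iff_nontrivial.1 (by omega)
      have hA : Nat.card (alternatingGroup Ω) = 12 := by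
        rw [nat_card_alternatingGroup, Nat.card_eq_fintype_card, hc4]; rfl
      have hH4 : 4 ∣ Nat.card (W f ⊓ alternatingGroup Ω : Subgroup (Perm Ω)) := by
        have := isPretransitive_of_le f e he ha hb (le_refl (W f ⊓ alternatingGroup Ω))
        obtain ⟨x⟩ : Nonempty Ω := inferInstance
        have := MulAction.index_stabilizer_of_transitive
          (W f ⊓ alternatingGroup Ω : Subgroup (Perm Ω)) x
        rw [Nat.card_eq_fintype_card, hc4] at this
        rw [← this]
        exact Subgroup.index_dvd_card _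
      have hHL' : Nat.card (W f ⊓ alternatingGroup Ω : Subgroup (Perm Ω)) ∣ Nat.card L :=
        Subgroup.card_dvd_of_le hHL
      have hLA' : Nat.card L ∣ 12 := by rw [← hA]; exact Subgroup.card_dvd_of_le hLA
      have hne : Nat.card (W f ⊓ alternatingGroup Ω : Subgroup (Perm Ω)) ≠ Nat.card L := by
        intro h
        apply hLH
        have := Subgroup.eq_of_le_of_card_ge hHL (by rw [h])
        rw [this]
      have hL12 : Nat.card L = 12 := by
        have h1 : Nat.card L ≤ 12 := Nat.le_of_dvd (by norm_num) hLA'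
        have h2 : 4 ∣ Nat.card L := hH4.trans hHL'
        have h3 : 0 < Nat.card L := Nat.card_pos
        have h4 : Nat.card L = 4 ∨ Nat.card L = 12 := by
          obtain ⟨k, hk⟩ := h2
          obtain ⟨j, hj⟩ := hLA'
          have hk3 : k ≤ 3 := by omega
          interval_cases k
          · omega
          · left; omega
          · exfalso
            rw [hk] at hj
            omega
          · right; omega
        rcases h4 with h4 | h4
        · rw [h4] at hHL'
          exact absurd (Nat.dvd_antisymm hHL' hH4) (by rw [← h4]; exact hne)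
        · exact h4
      have := Subgroup.eq_of_le_of_card_ge hLA (by rw [hL12, hA])
      rw [this]

end Cfsg.Agent.Lib.Helper9.Wreath
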